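import Mathlib

/-! A strengthening of Bertrand's postulate: two primes, at distance at least three, in `(m/2, m]`. -/

set_option autoImplicit false

namespace Cfsg.Agent.FGS

open Nat

theorem centralBinom_le_of_few (n : ℕ) (hn : 2 < n) (T : Finset ℕ)
    (hT : ∀ p : ℕ, p.Prime → n < p → p ≤ 2 * n → p ∈ T) :
    centralBinom n ≤ (2 * n) ^ (sqrt (2 * n) + T.card) * 4 ^ (2 * n / 3) := by
  have n2 : 1 ≤ 2 * n := by omega
  let f x := x ^ n.centralBinom.factorization x
  have h1 : centralBinom n = ∏ p ∈ (Finset.Icc 1 (sqrt (2 * n)) ∪ T) ∪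
      ({p ∈ Finset.range (2 * n / 3 + 1) | p.Prime} \ (Finset.Icc 1 (sqrt (2 * n)) ∪ T)), f p := by
    rw [Finset.union_sdiff_self_eq_union]
    conv_lhs => rw [← Nat.factorization_prod_pow_eq_self (centralBinom_ne_zero n)]
    refine Finset.prod_subset (fun p hp => ?_) fun p _ hp => by
      simp only [Finsupp.notMem_support_iff.mp hp, pow_zero]
    have h0 := Finsupp.mem_support_iff.mp hp
    have h2 : p.Prime := Nat.prime_of_mem_primeFactors hp
    have h3 : p ≤ 2 * n := le_two_mul_of_factorization_centralBinom_pos (Nat.pos_of_ne_zero h0)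
    by_cases h4 : n < p
    · exact Finset.mem_union_left _ (Finset.mem_union_right _ (hT p h2 h4 h3))
    refine Finset.mem_union_right _ (Finset.mem_filter.mpr ⟨Finset.mem_range.mpr ?_, h2⟩)
    by_contra h5
    exact h0 (factorization_centralBinom_of_two_mul_self_lt_three_mul hn (by omega) (by omega))
  rw [h1, Finset.prod_union Finset.disjoint_sdiff]
  apply mul_le_mul'
  · refine (Finset.prod_le_prod' fun p _ => (pow_factorization_choose_le (by omega) : f p ≤ 2 * n)).trans ?_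
    rw [Finset.prod_const]
    exact pow_right_mono₀ n2 ((Finset.card_union_le _ _).trans (by simp))
  · refine le_trans ?_ (primorial_le_four_pow (2 * n / 3))
    refine (Finset.prod_le_prod' fun p hp => (?_ : f p ≤ p)).trans ?_
    · obtain ⟨h1, h2⟩ := Finset.mem_sdiff.1 hp
      have h3 := (Finset.mem_filter.1 h1).2
      refine (pow_right_mono₀ h3.one_lt.le ?_).trans (pow_one p).le
      refine Nat.factorization_choose_le_one (sqrt_lt'.mp <| not_le.1 fun h => h2 ?_)
      exact Finset.mem_union_left _ (Finset.mem_Icc.mpr ⟨h3.one_le, h⟩)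
    exact Finset.prod_le_prod_of_subset_of_one_le' Finset.sdiff_subset fun p hp _ => (Finset.mem_filter.1 hp).2.one_le

theorem pow_seven_lt (s : ℕ) (hs : 40 ≤ s) : (s + 1) ^ 7 ≤ 2 ^ s := by
  induction s, hs using Nat.le_induction with
  | base => norm_num
  | succ s hs ih =>
    have h1 : (40 * (s + 1 + 1)) ^ 7 ≤ (41 * (s + 1)) ^ 7 := Nat.pow_le_pow_left (by omega) 7
    rw [mul_pow, mul_pow] at h1
    rw [pow_succ 2]
    norm_num at h1
    omega

theorem exists_two_primes (m : ℕ) (hm : 17 ≤ m) :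
    ∃ p q : ℕ, p.Prime ∧ q.Prime ∧ m < 2 * p ∧ p + 3 ≤ q ∧ q ≤ m := by
  by_cases h : m < 2206
  · have : ∃ x ∈ [(11, 17), (13, 19), (19, 23), (29, 37), (43, 53), (79, 83), (151, 157), (283, 293), (557, 563),
      (1103, 1109)], m < 2 * x.1 ∧ x.2 ≤ m := by
      simp only [List.mem_cons, List.not_mem_nil, or_false, exists_eq_or_imp, exists_eq_left]
      omega
    obtain ⟨x, h1, h2, h3⟩ := this
    simp only [List.mem_cons, List.not_mem_nil, or_false] at h1
    refine ⟨x.1, x.2, ?_, ?_, h2, ?_, h3⟩ <;>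
    rcases h1 with rfl | rfl | rfl | rfl | rfl | rfl | rfl | rfl | rfl | rfl <;> norm_num
  by_contra hc
  push Not at hc
  obtain ⟨n, hn⟩ : ∃ n, n = m / 2 := ⟨_, rfl⟩
  have hex := Nat.exists_prime_lt_and_le_two_mul n (by omega)
  classical
  obtain ⟨a1, a2, a3⟩ := Nat.find_spec hex
  have h1 := centralBinom_le_of_few n (by omega) (Finset.Icc (Nat.find hex) (Nat.find hex + 2)) fun p b1 b2 b3 =>
    Finset.mem_Icc.mpr ⟨Nat.find_min' hex ⟨b1, b2, b3⟩, by
      by_contra h4
      have := hc _ p a1 b1 (by omega) (by omega)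
      omega⟩
  have h2 := Nat.four_pow_lt_mul_centralBinom n (by omega)
  rw [show (Finset.Icc (Nat.find hex) (Nat.find hex + 2)).card = 3 by rw [Nat.card_Icc]; omega] at h1
  obtain ⟨s, hs⟩ : ∃ s, s = sqrt (2 * n) := ⟨_, rfl⟩
  rw [← hs] at h1
  have h3 : 2 * n < (s + 1) ^ 2 := hs ▸ Nat.lt_succ_sqrt' _
  have h4 : s ^ 2 ≤ 2 * n := hs ▸ Nat.sqrt_le' _
  have h5 : 40 ≤ s := by
    by_contra h5
    have := Nat.pow_le_pow_left (show s + 1 ≤ 40 by omega) 2
    omega
  have h6 : 4 ^ (n - 2 * n / 3) < (2 * n) ^ (s + 4) := by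
    refine Nat.lt_of_mul_lt_mul_right (a := 4 ^ (2 * n / 3)) ?_
    rw [← pow_add, Nat.sub_add_cancel (by omega), _root_.pow_succ', mul_assoc]
    exact h2.trans_le (Nat.mul_le_mul (by omega) h1)
  have h7 : (4 ^ (n - 2 * n / 3)) ^ 7 < 4 ^ (s * (s + 4)) := by
    calc _ < ((2 * n) ^ (s + 4)) ^ 7 := Nat.pow_lt_pow_left h6 (by norm_num)
      _ ≤ (((s + 1) ^ 2) ^ (s + 4)) ^ 7 := by gcongr
      _ = ((s + 1) ^ 7) ^ (2 * (s + 4)) := by simp only [← pow_mul]; ring_nf
      _ ≤ (2 ^ s) ^ (2 * (s + 4)) := Nat.pow_le_pow_left (pow_seven_lt s h5) _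
      _ = _ := by rw [show 4 = 2 ^ 2 from rfl]; simp only [← pow_mul]; ring_nf
  rw [← pow_mul, Nat.pow_lt_pow_iff_right (by norm_num)] at h7
  have h8 : n ≤ 3 * (n - 2 * n / 3) := by omega
  nlinarith

end Cfsg.Agent.FGS
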