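import Mathlib
import Cfsg.Agent.Perm.FC2
import Cfsg.Agent.H2.Frobenius
import Cfsg.Agent.Core.Hall
import Cfsg.Agent.Core.Cores
import Cfsg.Agent.Core.Fitting
import Cfsg.Agent.Core.Super
import Cfsg.Agent.Core.MinNormal

/-! Groups with disconnected prime graph. -/

set_option autoImplicit false

namespace Cfsg.Agent.FGS

open Subgroup

variable {G : Type*} [Group G] [Finite G] {π : Set ℕ}

/-- no element has order divisible by a prime of `π` and a prime outside `π` -/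
def Dis (π : Set ℕ) (G : Type*) [Group G] : Prop :=
  ∀ g : G, ∀ a b : ℕ, a.Prime → b.Prime → a ∈ π → b ∉ π → a ∣ orderOf g → b ∣ orderOf g → False

theorem exists_pow_orderOf {g : G} {a : ℕ} (h : a ∣ orderOf g) : ∃ k, orderOf (g ^ k) = a :=
  ⟨orderOf g / a, orderOf_pow_orderOf_div (orderOf_pos g).ne' h⟩

theorem dis_of (h : ∀ a ∈ π, ∀ b ∉ π, a.Prime → b.Prime → a ∣ Nat.card G → b ∣ Nat.card G →
    ¬ ∃ g : G, orderOf g = a * b) : Dis π G := fun g a b ha hb h1 h2 h3 h4 => by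
  obtain ⟨k, hk⟩ := exists_pow_orderOf (((Nat.coprime_primes ha hb).mpr fun e => h2 (e ▸ h1)).mul_dvd_of_dvd_of_dvd h3 h4)
  exact h a h1 b h2 ha hb (h3.trans (orderOf_dvd_natCard g)) (h4.trans (orderOf_dvd_natCard g)) ⟨_, hk⟩

omit [Finite G] in
theorem Dis.compl (h : Dis π G) : Dis πᶜ G := fun g a b ha hb h1 h2 h3 h4 => h g b a hb ha (not_not.mp h2) h1 h4 h3

omit [Finite G] in
theorem Dis.sub (h : Dis π G) (K : Subgroup G) : Dis π K := fun g a b ha hb h1 h2 h3 h4 =>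
  h g a b ha hb h1 h2 (by rwa [Subgroup.orderOf_coe]) (by rwa [Subgroup.orderOf_coe])

omit [Finite G] in
theorem Dis.quot (h : Dis π G) (N : Subgroup G) [N.Normal] : Dis π (G ⧸ N) := fun g a b ha hb h1 h2 h3 h4 => by
  obtain ⟨g, rfl⟩ := QuotientGroup.mk'_surjective N g
  exact h g a b ha hb h1 h2 (h3.trans (orderOf_map_dvd _ g)) (h4.trans (orderOf_map_dvd _ g))

theorem Dis.comm (h : Dis π G) {x y : G} (hc : Commute x y) {a b : ℕ} (ha : a.Prime) (hb : b.Prime) (h1 : a ∈ π)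
    (h2 : b ∉ π) (h3 : a ∣ orderOf x) (h4 : b ∣ orderOf y) : False := by
  obtain ⟨k, hk⟩ := exists_pow_orderOf h3
  obtain ⟨l, hl⟩ := exists_pow_orderOf h4
  have := (hc.pow_pow k l).orderOf_mul_eq_mul_orderOf_of_coprime
    (by rw [hk, hl]; exact (Nat.coprime_primes ha hb).mpr fun e => h2 (e ▸ h1))
  rw [hk, hl] at this
  exact h _ a b ha hb h1 h2 (this ▸ dvd_mul_right _ _) (this ▸ dvd_mul_left _ _)

theorem Dis.semireg (h : Dis π G) {N D : Subgroup G} (hN : IsPiSubgroup π N) (hD : IsPiSubgroup πᶜ D) :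
    ∀ d ∈ D, d ≠ 1 → N ⊓ centralizer {d} = ⊥ := fun d hd hd1 => eq_bot_iff.mpr fun x hx => by
  by_contra hx1
  obtain ⟨a, ha, h1⟩ := Nat.exists_prime_and_dvd (mt orderOf_eq_one_iff.mp hx1)
  obtain ⟨b, hb, h2⟩ := Nat.exists_prime_and_dvd (mt orderOf_eq_one_iff.mp hd1)
  exact h.comm (mem_centralizer_singleton_iff.mp hx.2) ha hb (hN a ha (h1.trans (N.orderOf_dvd_natCard hx.1)))
    (hD b hb (h2.trans (D.orderOf_dvd_natCard hd))) h1 h2

theorem Dis.frob (h : Dis π G) {N : Subgroup G} [N.Normal] (hN : IsPiHall π N) (h0 : N ≠ ⊥) (h1 : N ≠ ⊤) :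
    ∃ C : Subgroup G, IsFrobeniusComplement C ∧ frobeniusKernel C = N := by
  obtain ⟨C, hC⟩ := exists_right_complement'_of_coprime (Core.IsPiHall.coprime_index hN hN.1)
  have h2 : C ≠ ⊥ := fun e => h1 (by rw [e] at hC; exact isComplement'_bot_right.mp hC)
  have h3 := (H2.Frob.iff_semiregular hC h0 h2).mpr (h.semireg hN.1 fun p hp hd hπ =>
    hN.2 p hp hπ (hC.symm.index_eq_card ▸ hd))
  exact ⟨C, h3, H2.Frob.kernel_eq hC h3⟩

theorem Dis.fc_map (h : Dis π G) {N D : Subgroup G} [N.Normal] (hN : IsPiSubgroup π N) (h0 : N ≠ ⊥)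
    (hD : IsPiSubgroup πᶜ D) : Perm.IsFC (D.map (QuotientGroup.mk' N)) := by
  have h1 := Perm.isFC_of_semiregular (by rw [normalizer_eq_top]; exact le_top) (h.semireg hN hD) h0
  have h2 : Function.Injective ((QuotientGroup.mk' N).comp D.subtype) := by
    rw [injective_iff_map_eq_one]
    intro d hd
    by_contra h3
    obtain ⟨a, ha, h4⟩ := Nat.exists_prime_and_dvd (mt orderOf_eq_one_iff.mp h3)
    exact hD a ha (h4.trans (orderOf_dvd_natCard d)) (hN a ha (h4.trans (by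
      rw [← Subgroup.orderOf_coe]; exact N.orderOf_dvd_natCard ((QuotientGroup.eq_one_iff _).mp hd))))
  exact h1.of_equiv ((MonoidHom.ofInjective h2).trans (MulEquiv.subgroupCongr (by
    rw [MonoidHom.range_comp, range_subtype])))

theorem Dis.hall_of_fc [Group.IsSolvable G] (h : Dis π G) (h0 : piCore π G = ⊥) (hfc : Perm.IsFC (piCore πᶜ G)) :
    IsPiHall πᶜ (piCore πᶜ G) := by
  refine ⟨Core.piCore_isPiSubgroup _, fun b hb hbπ hd => ?_⟩
  have := Core.piCore_characteristic (G := G) πᶜ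
  by_cases hex : ∀ a : ℕ, a.Prime → a ∣ Nat.card G → a ∈ πᶜ
  · rw [Core.piCore_eq_top_iff.mpr hex, index_top] at hd
    exact hb.one_lt.ne' (Nat.dvd_one.mp hd)
  push Not at hex
  obtain ⟨a, ha, ha1, ha2⟩ := hex
  replace ha2 : a ∈ π := not_not.mp ha2
  have : Fact a.Prime := ⟨ha⟩
  have : Fact b.Prime := ⟨hb⟩
  obtain ⟨x, hx⟩ := exists_prime_orderOf_dvd_card' a ha1
  have h1 : ∀ p : Nat.Primes, IsCyclic (pCore p G) := fun ⟨p, hp⟩ => by
    have : Fact p.Prime := ⟨hp⟩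
    by_cases hπ : p ∈ π
    · rw [le_bot_iff.mp ((Core.pCore_le_piCore hπ).trans h0.le)]; infer_instance
    have hle : pCore p G ≤ piCore πᶜ G := Core.pCore_le_piCore hπ
    by_cases h2 : p = 2
    · subst h2
      by_cases h3 : pCore 2 G = ⊥
      · rw [h3]; infer_instance
      obtain ⟨s, hs⟩ := exists_prime_orderOf_dvd_card' 2
        ((Core.prime_dvd_card_of_isPGroup (Core.pCore_isPGroup 2) h3).trans (card_dvd_of_le hle))
      have := hfc.invol_unique hs (t := MulAut.conjNormal x s) (by rw [MulEquiv.orderOf_eq, hs])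
      have h4 : x * s * x⁻¹ = s := congrArg Subtype.val this
      exact (h.comm (mul_inv_eq_iff_eq_mul.mp h4) ha hp ha2 hπ hx.symm.dvd (by rw [Subgroup.orderOf_coe, hs])).elim
    · have := (hfc.of_injective _ (inclusion_injective hle)).isCyclic_of_ne_two h2 (P := ⊤)
        ((Core.pCore_isPGroup p).to_subgroup ⊤)
      exact isCyclic_of_surjective _ topEquiv.surjective
  have h2 : commutator G ≤ piCore πᶜ G := by
    refine le_trans (le_trans ?_ Core.centralizer_fitting_le) ?_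
    · rw [le_centralizer_iff, Core.fitting_eq_iSup_pCore]
      refine iSup_le fun p => le_centralizer_iff.mp ?_
      have := Core.pCore_characteristic (G := G) p
      exact Core.commutator_le_centralizer_of_isCyclic _
    · rw [Core.fitting_eq_iSup_pCore]
      refine iSup_le fun ⟨p, hp⟩ => ?_
      have : Fact p.Prime := ⟨hp⟩
      by_cases hπ : p ∈ π
      · rw [le_bot_iff.mp ((Core.pCore_le_piCore hπ).trans h0.le)]; exact bot_le
      · exact Core.pCore_le_piCore hπ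
  obtain ⟨y, hy⟩ := exists_prime_orderOf_dvd_card' (G := G ⧸ piCore πᶜ G) b hd
  obtain ⟨z, hz⟩ := exists_prime_orderOf_dvd_card' (G := G ⧸ piCore πᶜ G) a (by
    rw [← (piCore πᶜ G).card_mul_index] at ha1
    exact (ha.dvd_mul.mp ha1).resolve_left fun e => Core.piCore_isPiSubgroup _ a ha e ha2)
  refine (h.quot _).comm (x := z) (y := y) ?_ ha hb ha2 hbπ hz.symm.dvd hy.symm.dvd
  exact (Subgroup.Normal.quotient_commutative_iff_commutator_le.mpr h2).1.1 _ _

theorem Dis.hall_quot [Group.IsSolvable G] (h : Dis π G) (h0 : piCore π G ≠ ⊥) :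
    Perm.IsFC (piCore πᶜ (G ⧸ piCore π G)) ∧ IsPiHall πᶜ (piCore πᶜ (G ⧸ piCore π G)) := by
  obtain ⟨D, hD⟩ := Core.exists_isPiHall (G := G) πᶜ
  have h1 := (h.fc_map (Core.piCore_isPiSubgroup π) h0 hD.1).of_injective _ (inclusion_injective
    (Core.piCore_le_of_isPiHall (Core.IsPiHall.map hD (QuotientGroup.mk'_surjective _))))
  exact ⟨h1, (h.quot _).hall_of_fc (Core.piCore_quotient_piCore π) h1⟩

theorem piCore_ne_or [Group.IsSolvable G] [Nontrivial G] (π : Set ℕ) : piCore π G ≠ ⊥ ∨ piCore πᶜ G ≠ ⊥ := by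
  obtain ⟨N, p, hN, h0, hp, h1⟩ := Core.exists_normal_pGroup (G := G)
  have : Fact p.Prime := ⟨hp⟩
  have h2 : ∀ ρ : Set ℕ, p ∈ ρ → piCore ρ G ≠ ⊥ := fun ρ hρ e =>
    h0 (le_bot_iff.mp (e ▸ (Core.le_pCore hN h1).trans (Core.pCore_le_piCore hρ)))
  by_cases hπ : p ∈ π
  · exact Or.inl (h2 _ hπ)
  · exact Or.inr (h2 _ hπ)

end Cfsg.Agent.FGS
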