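import Mathlib
import Cfsg.Agent.FGS.Basic2
import Cfsg.Agent.FGS.Kazarin
import Cfsg.Agent.Core.SylowOf
import Cfsg.Agent.Core.Cores
import Cfsg.Agent.Core.Coprime
import Cfsg.Agent.PGrp.Aut
import Cfsg.Agent.H2.Subnormal

/-! Groups whose `π`-elements form a subgroup. -/

set_option autoImplicit false

namespace Cfsg.Agent.FGS

open Subgroup Cfsg Cfsg.Agent

variable {G : Type*} [Group G] [Finite G] {π : Set ℕ}

/-- `N / (N ∩ O_π(G))` is a `π'`-group. -/
def PiCl (π : Set ℕ) (N : Subgroup G) : Prop :=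
  ∀ p : ℕ, p.Prime → p ∣ (piCore π G).relIndex N → p ∉ π

theorem piCl_bot : PiCl π (⊥ : Subgroup G) := fun p hp h => by
  rw [relIndex_bot_right] at h
  exact absurd (Nat.dvd_one.mp h) hp.one_lt.ne'

theorem exists_iff_piCl_top :
    (∃ K : Subgroup G, ∀ x : G, x ∈ K ↔ ∀ p : ℕ, p.Prime → p ∣ orderOf x → p ∈ π) ↔
      PiCl π (⊤ : Subgroup G) := by
  constructor
  · rintro ⟨K, hK⟩ p hp h hπ
    have hn : K.Normal := ⟨fun x hx g => by
      rw [hK] at hx ⊢
      rwa [show orderOf (g * x * g⁻¹) = orderOf x from (MulAut.conj g).orderOf_eq x]⟩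
    have h1 := Core.le_piCore hn (Core.isPiSubgroup_iff_orderOf.mpr fun x hx => (hK x).mp hx)
    obtain ⟨a, -, ha, -, k, hk⟩ := PGrp.exists_of_prime_dvd_relIndex hp h
    refine ha (h1 ((hK a).mpr fun q hq hd => ?_))
    rw [hk] at hd
    rwa [(Nat.prime_dvd_prime_iff_eq hq hp).mp (hq.dvd_of_dvd_pow hd)]
  · intro h
    refine ⟨piCore π G, fun x => ⟨Core.isPiSubgroup_iff_orderOf.mp (Core.piCore_isPiSubgroup π) x,
      fun hx => Core.mem_of_pow_mem_of_coprime ((piCore π G).pow_index_mem x) ?_⟩⟩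
    refine Nat.coprime_of_dvd fun p hp h1 h2 => h p hp ?_ (hx p hp h2)
    rwa [relIndex_top_right]

theorem piCl_top_iff (N : Subgroup G) [N.Normal] : PiCl π (⊤ : Subgroup N) ↔ PiCl π N := by
  unfold PiCl
  rw [relIndex_top_right, Core.piCore_eq_subgroupOf]
  rfl

theorem PiCl.step_compl {K M : Subgroup G} (h : PiCl π K) (hKM : K ≤ M)
    (hi : ∀ p : ℕ, p.Prime → p ∣ K.relIndex M → p ∉ π) : PiCl π M := by
  intro p hp hd
  have h1 := hd.trans (relIndex_dvd_of_le_left M (inf_le_left : piCore π G ⊓ K ≤ _))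
  rw [← relIndex_mul_relIndex _ K M inf_le_right hKM, inf_relIndex_right] at h1
  rcases (Nat.Prime.dvd_mul hp).mp h1 with h2 | h2
  · exact h p hp h2
  · exact hi p hp h2

theorem mem_centralizer_of_hom
    (hhom : ∀ H : Subgroup G, H ≠ ⊥ → (∀ p : ℕ, p.Prime → p ∣ Nat.card ↥H → p ∉ π) →
      ∀ p : ℕ, p.Prime → p ∣ (centralizer (H : Set G)).relIndex (normalizer (H : Set G)) → p ∉ π)
    {H : Subgroup G} (hH : ∀ p : ℕ, p.Prime → p ∣ Nat.card ↥H → p ∉ π) {x : G}
    (hx : x ∈ normalizer (H : Set G)) (hπ : ∀ p : ℕ, p.Prime → p ∣ orderOf x → p ∈ π) :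
    x ∈ centralizer (H : Set G) := by
  by_cases h0 : H = ⊥
  · subst h0; simp [mem_centralizer_iff]
  haveI := PGrp.normal_subgroupOf_of_le_normalizer (Core.normalizer_le_normalizer_centralizer (H : Set G))
  refine Core.mem_of_pow_mem_of_coprime
    (((centralizer (H : Set G)).subgroupOf (normalizer (H : Set G))).pow_index_mem ⟨x, hx⟩) ?_
  exact Nat.coprime_of_dvd fun p hp h1 h2 => hhom H h0 hH p hp h1 (hπ p hp h2)

theorem PiCl.step {K M : Subgroup G} [hK : K.Normal] [hM : M.Normal]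
    (hhom : ∀ H : Subgroup G, H ≠ ⊥ → (∀ p : ℕ, p.Prime → p ∣ Nat.card ↥H → p ∉ π) →
      ∀ p : ℕ, p.Prime → p ∣ (centralizer (H : Set G)).relIndex (normalizer (H : Set G)) → p ∉ π)
    (h : PiCl π K) (hKM : K ≤ M) (hi : ∀ p : ℕ, p.Prime → p ∣ K.relIndex M → p ∈ π) :
    PiCl π M := by
  let f := QuotientGroup.mk' (piCore π G)
  have hs : Function.Surjective f := QuotientGroup.mk'_surjective _
  have hker : f.ker = piCore π G := QuotientGroup.ker_mk' _
  have hc : ∀ N : Subgroup G, (piCore π G).relIndex N = Nat.card (N.map f) := fun N => by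
    rw [← relIndex_ker, hker]
  haveI := hK.map f hs
  haveI := hM.map f hs
  have hK' : ∀ p : ℕ, p.Prime → p ∣ Nat.card (K.map f) → p ∉ π := fun p hp hd => h p hp (hc K ▸ hd)
  have hi' : ∀ p : ℕ, p.Prime → p ∣ (K.map f).relIndex (M.map f) → p ∈ π := fun p hp hd => by
    rw [← relIndex_comap] at hd
    exact hi p hp (hd.trans (relIndex_dvd_of_le_left M (le_comap_map f K)))
  obtain ⟨U, hUM, -, hsup, hU⟩ := Core.exists_complement_in (K.map f) (M.map f) (map_mono hKM)
    (by rw [normalizer_eq_top]; exact le_top)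
    (Nat.coprime_of_dvd fun p hp h1 h2 => hK' p hp h1 (hi' p hp h2))
  have hUπ : IsPiSubgroup π U := fun p hp hd => hi' p hp (hU ▸ hd)
  have hUC : U ≤ centralizer (K.map f : Set (G ⧸ piCore π G)) := by
    intro u hu
    refine mem_of_forall_pPart _ fun r j hr a ha hj => ?_
    haveI := Fact.mk hr
    have haπ := Core.isPiSubgroup_iff_orderOf.mp hUπ a (zpowers_le.mpr hu ha)
    refine le_centralizer_iff.mp (Core.le_of_forall_isSylowOf_le _ _ fun q hq hqK => ?_) (mem_zpowers a)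
    haveI := Fact.mk hq
    obtain ⟨Q', hQ', hn⟩ := Core.exists_invariant_isSylowOf (zpowers a) (K.map f)
      (by rw [normalizer_eq_top]; exact le_top)
      (Nat.coprime_of_dvd fun p hp h1 h2 => hK' p hp h2 (haπ p hp (by rwa [Nat.card_zpowers] at h1)))
      (Or.inl inferInstance) q
    refine ⟨Q', hQ', le_centralizer_iff.mp (zpowers_le.mpr ?_)⟩
    obtain ⟨x, rfl⟩ := hs a
    obtain ⟨Q, hQ⟩ := Core.exists_isSylowOf q (Q'.comap f)
    have h1 := hQ.map f
    rw [map_comap_eq_self_of_surjective hs] at h1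
    have h2 : Q.map f = Q' := h1.eq_of_le hQ'.isPGroup le_rfl h1.le
    obtain ⟨k, hk, hkx⟩ := hQ.exists_mul_normalizer (le_normalizer_comap f (hn (mem_zpowers _)))
    obtain ⟨y, hy, hyk⟩ := h2.ge hk
    have h3 : y * k⁻¹ * x ∈ normalizer (Q : Set G) := by
      rw [mul_assoc]; exact mul_mem (le_normalizer hy) hkx
    have h4 : f (y * k⁻¹ * x) = f x := by rw [map_mul, map_mul, map_inv, hyk, mul_inv_cancel, one_mul]
    obtain ⟨b, hb, hb1, i, hi⟩ := exists_pElement_lift f (y * k⁻¹ * x) (h4 ▸ hj)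
    by_cases hx1 : f x = 1
    · rw [hx1]; exact one_mem _
    have hrπ : r ∈ π := haπ r hr (hj ▸ dvd_pow_self r fun h0 => hx1
      (orderOf_eq_one_iff.mp (by rw [hj, h0, pow_zero])))
    have h5 := mem_centralizer_of_hom hhom (H := Q) (fun p hp hd => by
      obtain ⟨n, hn⟩ := IsPGroup.iff_card.mp hQ.isPGroup
      rw [hn] at hd
      rw [(Nat.prime_dvd_prime_iff_eq hp hq).mp (hp.dvd_of_dvd_pow hd)]
      exact hK' q hq hqK) (zpowers_le.mpr h3 hb) (fun p hp hd => by
      rw [hi] at hd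
      rwa [(Nat.prime_dvd_prime_iff_eq hp hr).mp (hp.dvd_of_dvd_pow hd)])
    rw [← h4, ← hb1, ← h2, mem_centralizer_iff]
    rintro _ ⟨z, hz, rfl⟩
    rw [← map_mul, ← map_mul, mem_centralizer_iff.mp h5 z hz]
  have hUn : M.map f ≤ normalizer (U : Set (G ⧸ piCore π G)) := by
    rw [← hsup]
    exact sup_le ((le_centralizer_iff.mp hUC).trans (centralizer_le_normalizer _)) le_normalizer
  have hU0 := Core.le_piCore_of_isSubnormal (H2.SN.top_iff.mp ((H2.SN.of_normal le_top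
    (normalizer_eq_top _).ge).trans (H2.SN.of_normal hUM hUn))) hUπ
  rw [Core.piCore_quotient_piCore, le_bot_iff] at hU0
  rw [hU0, sup_bot_eq] at hsup
  intro p hp hd
  rw [hc, ← hsup] at hd
  exact hK' p hp hd

end Cfsg.Agent.FGS
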