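import Mathlib
import Cfsg.Agent.Core.Coprime2
import Cfsg.Agent.BG.T1_3
import Cfsg.Agent.BG.S7Aux
import Cfsg.Agent.BG.AmbCore

/-! A unit `a` with `a² + a + 1 = 0` centralizes every solvable `{2,3}'`-group it normalizes. -/

set_option autoImplicit false

namespace Cfsg.Agent.FGS

open Subgroup
open scoped IsMulCommutative commutatorElement

universe u

variable {A : Type u} [Ring A]

theorem one_of_domains (h2 : IsNilpotent (2 : A)) {K : Subgroup Aˣ} (hK : IsMulCommutative K)
    {y : K} (ho : Odd (orderOf y))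
    (h : ∀ (D : Type u) [CommRing D] [IsDomain D] (g : K →* D),
      (∀ a b c d : K, ((a : Aˣ) : A) + (b : Aˣ) = (c : Aˣ) + (d : Aˣ) → g a + g b = g c + g d) →
      g y = 1) : y = 1 := by
  let S : Set A := Set.range fun k : K => ((k : Aˣ) : A)
  haveI : IsMulCommutative (Subring.closure S) := Subring.isMulCommutative_closure (by
    rintro _ ⟨a, rfl⟩ _ ⟨b, rfl⟩
    exact congrArg (fun k : K => ((k : Aˣ) : A)) (mul_comm a b))
  let f : K →* Subring.closure S := ((Units.coeHom A).comp K.subtype).codRestrict _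
    fun k => Subring.subset_closure ⟨k, rfl⟩
  have h1 : IsNilpotent (f y - 1) := by
    rw [nilpotent_iff_mem_prime]
    intro J hJ
    rw [← Ideal.Quotient.eq, map_one]
    refine h (Subring.closure S ⧸ J) ((Ideal.Quotient.mk J).toMonoidHom.comp f) fun a b c d e => ?_
    have : f a + f b = f c + f d := Subtype.ext e
    simpa using congrArg (Ideal.Quotient.mk J) this
  have h3 : IsNilpotent (2 : Subring.closure S) := by
    obtain ⟨k, hk⟩ := h2
    exact ⟨k, Subtype.ext (by rw [Subring.coe_pow]; exact hk)⟩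
  obtain ⟨c, hc⟩ := ho
  have h4 : (∑ i ∈ Finset.range (orderOf y), f y ^ i) * (f y - 1) = 0 := by
    rw [geom_sum_mul, ← map_pow, pow_orderOf_eq_one, map_one, sub_self]
  have h5 : IsNilpotent (∑ i ∈ Finset.range (orderOf y), f y ^ i - 1) := by
    rw [nilpotent_iff_mem_prime] at h1 h3 ⊢
    intro J hJ
    rw [← Ideal.Quotient.eq_zero_iff_mem]
    have e1 := Ideal.Quotient.eq.2 (h1 J hJ)
    have e2 := Ideal.Quotient.eq_zero_iff_mem.2 (h3 J hJ)
    simp only [map_sub, map_sum, map_pow, e1, map_one, one_pow, Finset.sum_const,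
      Finset.card_range, hc]
    rw [map_ofNat] at e2
    simp only [nsmul_eq_mul, mul_one]
    push_cast
    linear_combination (c : Subring.closure S ⧸ J) * e2
  have h6 := h5.isUnit_add_one
  rw [sub_add_cancel] at h6
  have h7 := sub_eq_zero.1 (h6.mul_right_eq_zero.1 h4)
  exact Subtype.ext (Units.ext (congrArg Subtype.val h7))

theorem dom_cases {D : Type*} [CommRing D] [IsDomain D] {u u' v v' : D} (hu : u * u' = 1)
    (hv : v * v' = 1) (h : u + u' = v + v') : u = v ∨ u * v = 1 := by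
  have : (u - v) * (u * v - 1) = 0 := by
    linear_combination (u * v) * h - v * hu + u * hv
  simpa [sub_eq_zero] using this

/-- `x + x⁻¹` -/
def trU (x : Aˣ) : A := (x : A) + (x⁻¹ : Aˣ)

theorem trU_conj (x g : Aˣ) (h : Commute (g : A) (trU x)) : trU (g * x * g⁻¹) = trU x := by
  have : trU (g * x * g⁻¹) = g * trU x * (g⁻¹ : Aˣ) := by
    simp [trU, mul_add, add_mul, mul_assoc]
  rw [this, h.eq, mul_assoc, Units.mul_inv, mul_one]

theorem commute_trU (x : Aˣ) : Commute (x : A) (trU x) :=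
  (Commute.refl _).add_right (Commute.refl (x : A)).units_inv_right

theorem isMulComm_closure {G : Type*} [Group G] {u v : G} (h : Commute u v) :
    IsMulCommutative (closure ({u, v} : Set G)) := Subgroup.isMulCommutative_closure (by
  rintro _ (rfl | rfl) _ (rfl | rfl)
  exacts [rfl, h.eq, h.symm.eq, rfl])

theorem one_of_trU_two (h2 : IsNilpotent (2 : A)) {u z : Aˣ} (hc : Commute u z)
    (ho : Odd (orderOf z)) (h1 : trU (u * z) = trU u) (h3 : trU (u * z * z) = trU u) : z = 1 := by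
  let U : closure ({u, z} : Set Aˣ) := ⟨u, subset_closure (by simp)⟩
  let Z : closure ({u, z} : Set Aˣ) := ⟨z, subset_closure (by simp)⟩
  have hZ : Odd (orderOf Z) := by rwa [← Subgroup.orderOf_coe]
  have h4 : Z ^ 2 = 1 := by
    refine one_of_domains h2 (isMulComm_closure hc)
      (hZ.of_dvd_nat (orderOf_pow_dvd 2)) fun D _ _ g hg => ?_
    have hi : ∀ a, g a * g a⁻¹ = 1 := fun a => by rw [← map_mul, mul_inv_cancel, map_one]
    have e1 := dom_cases (hi _) (hi _) (hg (U * Z) (U * Z)⁻¹ U U⁻¹ h1)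
    have e2 := dom_cases (hi _) (hi _) (hg (U * Z * Z) (U * Z * Z)⁻¹ U U⁻¹ h3)
    simp only [map_mul, map_pow] at e1 e2 ⊢
    have e3 := hi U
    rcases e1 with e1 | e1
    · have : g Z = 1 := by linear_combination g U⁻¹ * e1 - (g Z - 1) * e3
      rw [this, one_pow]
    rcases e2 with e2 | e2
    · linear_combination g U⁻¹ * e2 - (g Z ^ 2 - 1) * e3
    · have : g Z = 1 := by linear_combination e2 - g Z * e1
      rw [this, one_pow]
  have h5 : orderOf Z ∣ 1 := by
    rw [← hZ.coprime_two_right]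
    exact Nat.dvd_gcd dvd_rfl (orderOf_dvd_of_pow_eq_one h4)
  exact congrArg Subtype.val (orderOf_eq_one_iff.1 (Nat.dvd_one.1 h5))

theorem one_of_trU_three (h2 : IsNilpotent (2 : A)) {u v : Aˣ} (hc : Commute u v)
    (ho : Odd (orderOf u)) (h3 : ¬ 3 ∣ orderOf u) (h1 : trU v = trU u)
    (h4 : trU (u * v) = trU v) : u = 1 := by
  let U : closure ({u, v} : Set Aˣ) := ⟨u, subset_closure (by simp)⟩
  let V : closure ({u, v} : Set Aˣ) := ⟨v, subset_closure (by simp)⟩
  have hU : orderOf U = orderOf u := by rw [← Subgroup.orderOf_coe]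
  have h4 : U ^ 3 = 1 := by
    refine one_of_domains h2 (isMulComm_closure hc)
      ((hU ▸ ho).of_dvd_nat (orderOf_pow_dvd 3)) fun D _ _ g hg => ?_
    have hi : ∀ a, g a * g a⁻¹ = 1 := fun a => by rw [← map_mul, mul_inv_cancel, map_one]
    have e1 := dom_cases (hi _) (hi _) (hg V V⁻¹ U U⁻¹ h1)
    have e2 := dom_cases (hi _) (hi _) (hg (U * V) (U * V)⁻¹ V V⁻¹ h4)
    simp only [map_mul, map_pow] at e1 e2 ⊢
    have e3 := hi V
    rcases e2 with e2 | e2
    · have : g U = 1 := by linear_combination g V⁻¹ * e2 - (g U - 1) * e3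
      rw [this, one_pow]
    rcases e1 with e1 | e1
    · rw [e1] at e2
      linear_combination e2
    · have e4 : g V = 1 := by linear_combination e2 - g V * e1
      rw [e4, one_mul] at e1
      rw [e1, one_pow]
  have h5 : orderOf U ∣ 1 := by
    rw [← ((Nat.Prime.coprime_iff_not_dvd Nat.prime_three).2 (hU ▸ h3)).symm]
    exact Nat.dvd_gcd dvd_rfl (orderOf_dvd_of_pow_eq_one h4)
  exact congrArg Subtype.val (orderOf_eq_one_iff.1 (Nat.dvd_one.1 h5))

theorem quad_inv {a : Aˣ} (ha : (a : A) * a + a + 1 = 0) : ((a⁻¹ : Aˣ) : A) = -a - 1 := by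
  have : (a : A) * (-a - 1) = 1 := by
    rw [← sub_eq_zero, ← neg_eq_zero, ← ha]; noncomm_ring
  exact Units.inv_eq_of_mul_eq_one_right this

theorem quad_cube {a : Aˣ} (ha : (a : A) * a + a + 1 = 0) : a * a * a = 1 := by
  refine Units.ext ?_
  have : (a : A) * a * a - 1 = (a - 1) * ((a : A) * a + a + 1) := by noncomm_ring
  rw [ha, mul_zero, sub_eq_zero] at this
  exact this

theorem quad_commute {a b : Aˣ} (ha : (a : A) * a + a + 1 = 0) (hb : (b : A) * b + b + 1 = 0) :
    Commute (a : A) (trU (a * b⁻¹)) := by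
  have e : (a : A) * a = -a - 1 := by rw [← sub_eq_zero, ← ha]; noncomm_ring
  have e1 : ∀ x : A, (a : A) * (a * x) = -(a * x) - x := fun x => by
    rw [← mul_assoc, e]; noncomm_ring
  have e2 : ∀ x : A, x * (a : A) * a = -(x * a) - x := fun x => by
    rw [mul_assoc, e]; noncomm_ring
  change _ = _
  simp only [trU, mul_inv_rev, inv_inv, Units.val_mul, quad_inv ha, quad_inv hb]
  have l1 : (a : A) * (a * (-b - 1) + b * (-a - 1)) =
      -(a * (a * b)) - a * a - a * b * a - a * b := by noncomm_ring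
  have l2 : ((a : A) * (-b - 1) + b * (-a - 1)) * a =
      -(a * b * a) - a * a - b * a * a - b * a := by noncomm_ring
  rw [l1, l2, e1, e2]
  abel

theorem quad_class_two (h2 : IsNilpotent (2 : A)) {a : Aˣ} (ha : (a : A) * a + a + 1 = 0)
    {R : Subgroup Aˣ} (hn : a ∈ normalizer (R : Set Aˣ))
    (ho : ∀ x ∈ R, Odd (orderOf x) ∧ ¬ 3 ∣ orderOf x)
    (hc : ⁅R, R⁆ ≤ centralizer (R : Set Aˣ)) : a ∈ centralizer (R : Set Aˣ) := by
  intro g hg
  have hcj : ∀ x ∈ R, a * x * a⁻¹ ∈ R := fun x hx => (mem_normalizer_iff.1 hn x).1 hx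
  have hb : ((g * a * g⁻¹ : Aˣ) : A) * (g * a * g⁻¹ : Aˣ) + (g * a * g⁻¹ : Aˣ) + 1 = 0 := by
    have := congrArg (fun x : A => (g : A) * x * (g⁻¹ : Aˣ)) ha
    simpa [mul_add, add_mul, mul_assoc] using this
  have h1 := quad_commute ha hb
  set x := a * (g * a * g⁻¹)⁻¹ with hx
  have hxR : x ∈ R := by
    have : x = (a * g * a⁻¹) * g⁻¹ := by rw [hx]; group
    exact this ▸ R.mul_mem (hcj g hg) (R.inv_mem hg)
  have h3 := trU_conj x a h1
  have h4 := trU_conj _ a (h3.symm ▸ h1)
  set y := a * x * a⁻¹ with hy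
  have hyR : y ∈ R := hcj x hxR
  have hz : ⁅x⁻¹, y⁆ ∈ ⁅R, R⁆ := commutator_mem_commutator (R.inv_mem hxR) hyR
  have hzR : ⁅x⁻¹, y⁆ ∈ R := Core.commutator_le_of_le_normalizer R.le_normalizer hz
  have e1 : y * x * y⁻¹ = x * ⁅x⁻¹, y⁆ := by rw [commutatorElement_def]; group
  have e2 : y * (y * x * y⁻¹) * y⁻¹ = x * ⁅x⁻¹, y⁆ * ⁅x⁻¹, y⁆ := by
    rw [← e1]
    conv_lhs => rw [e1, ← mul_assoc, mul_assoc (y * x), ← hc hz y⁻¹ (R.inv_mem hyR), ← mul_assoc]
  have h5 := trU_conj x y (h3 ▸ commute_trU y)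
  have h6 := trU_conj _ y (h5.symm ▸ h3 ▸ commute_trU y)
  have h7 : ⁅x⁻¹, y⁆ = 1 := one_of_trU_two h2 (hc hz x hxR) (ho _ hzR).1 (e1 ▸ h5)
    (e2 ▸ h6.trans h5)
  have h8 : Commute x y := by
    simpa using (commutatorElement_eq_one_iff_commute.1 h7).inv_left
  have h9 : a * y * a⁻¹ = (x * y)⁻¹ := by
    rw [h8.eq, eq_inv_iff_mul_eq_one, hy, hx]
    calc _ = (a * a * a) * g * (a * a * a)⁻¹ * g⁻¹ := by group
      _ = 1 := by rw [quad_cube ha]; group
  have h10 : trU (x * y) = trU y := by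
    rw [← h4, h9, trU, trU, inv_inv, add_comm]
  have h11 := one_of_trU_three h2 h8 (ho x hxR).1 (ho x hxR).2 h3 h10
  rw [hx, mul_inv_eq_one, eq_mul_inv_iff_mul_eq] at h11
  exact h11.symm

theorem quad_conj {a : Aˣ} (ha : (a : A) * a + a + 1 = 0) : orderOf a ∣ 3 :=
  orderOf_dvd_of_pow_eq_one (by rw [pow_three', quad_cube ha])

theorem quad_odd [Finite A] (h2 : IsNilpotent (2 : A)) {a : Aˣ} (ha : (a : A) * a + a + 1 = 0)
    (R : Subgroup Aˣ) : Group.IsSolvable R → Odd (Nat.card R) → ¬ 3 ∣ Nat.card R →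
    zpowers a ≤ normalizer (R : Set Aˣ) → zpowers a ≤ centralizer (R : Set Aˣ) := by
  induction R using WellFoundedLT.induction with
  | _ R ih =>
  intro hs ho h3 hn
  have sub : ∀ D < R, zpowers a ≤ normalizer (D : Set Aˣ) → zpowers a ≤ centralizer (D : Set Aˣ) :=
    fun D hD => ih D hD (solvable_of_solvable_injective (inclusion_injective hD.le))
      (ho.of_dvd_nat (card_dvd_of_le hD.le)) (fun h => h3 (h.trans (card_dvd_of_le hD.le)))
  have hcop : (Nat.card (zpowers a)).Coprime (Nat.card R) := by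
    rw [Nat.card_zpowers]
    exact ((Nat.Prime.coprime_iff_not_dvd Nat.prime_three).2 h3).coprime_dvd_left (quad_conj ha)
  rcases (Core.commutator_le_of_le_normalizer hn).lt_or_eq with h | h
  · refine Core.le_centralizer_of_commutator_commutator_eq_bot _ _ hn hcop
      (Core.le_centralizer_iff_commutator_eq_bot.1 (sub _ h ?_))
    exact Core.le_normalizer_commutator hn le_normalizer
  by_cases h0 : R = ⊥
  · subst h0; exact Core.le_centralizer_bot _
  have h1 := sub _ (Core.commutator_lt_of_solvable hs h0)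
    (Core.le_normalizer_commutator hn hn)
  have h4 := Core.commutator_le_centralizer_of_normalizes
    (Core.le_normalizer_commutator R.le_normalizer R.le_normalizer) h1
  rw [h] at h4
  refine zpowers_le.2 (quad_class_two h2 ha (hn (mem_zpowers a)) (fun x hx => ?_)
    (le_centralizer_iff.1 h4))
  have := orderOf_dvd_natCard (⟨x, hx⟩ : R)
  rw [← Subgroup.orderOf_coe] at this
  exact ⟨ho.of_dvd_nat this, fun h => h3 (h.trans this)⟩

theorem quad_solv [Finite A] (h2 : IsNilpotent (2 : A)) {a : Aˣ} (ha : (a : A) * a + a + 1 = 0)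
    {H : Subgroup Aˣ} (hs : Group.IsSolvable H) (h3 : ¬ 3 ∣ Nat.card H)
    (h0 : piCoreOf {2} H = ⊥) (hn : zpowers a ≤ normalizer (H : Set Aˣ)) :
    zpowers a ≤ centralizer (H : Set Aˣ) := by
  have hcop : (Nat.card H).Coprime (Nat.card (zpowers a)) := by
    rw [Nat.card_zpowers]
    exact (((Nat.Prime.coprime_iff_not_dvd Nat.prime_three).2 h3).coprime_dvd_left
      (quad_conj ha)).symm
  refine le_trans (le_inf le_rfl (quad_odd h2 ha _ ?_ ?_ ?_ (BG.S7.le_norm_fit hn)))
    (BG.coprime_cent_Fitting hn hcop hs)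
  · exact solvable_of_solvable_injective (inclusion_injective (BG.S7.fit_le H))
  · by_contra h
    exact BG.Amb.piCoreOf_ne_bot_of_dvd_fittingOf (p := 2)
      (even_iff_two_dvd.1 (Nat.not_odd_iff_even.1 h)) h0
  · exact fun h => h3 (h.trans (card_dvd_of_le (BG.S7.fit_le H)))

end Cfsg.Agent.FGS
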