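import Mathlib
import Cfsg.Agent.FGS.Bert
import Cfsg.Agent.Transfer.SylowConj
import Cfsg.Agent.Perm.MinNormalProd
import Cfsg.Agent.Core.MinNormal
import Cfsg.Agent.Perm.Small

/-! Primes that cannot be separated by a normal subgroup lie in a single simple chief factor. -/

set_option autoImplicit false

namespace Cfsg.Agent.FGS

open Subgroup

variable {G : Type*} [Group G] [Finite G]

theorem exists_orderOf_of_sep (N : Subgroup G) [N.Normal] {p q : ℕ} (hp : p.Prime) (hq : q.Prime) (hpq : p ≠ q)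
    (h1 : p ∣ Nat.card N) (h2 : q ∣ N.index) (h : ∀ i, 0 < i → p ^ i ∣ Nat.card G → ¬ p ^ i ≡ 1 [MOD q]) :
    ∃ g : G, orderOf g = p * q := by
  have := Fact.mk hp
  have := Fact.mk hq
  obtain ⟨P⟩ : Nonempty (Sylow p N) := inferInstance
  have h3 := P.normalizer_sup_eq_top
  rw [← relIndex_top_right, ← h3, relIndex_sup_right] at h2
  obtain ⟨y, hy⟩ := exists_prime_orderOf_dvd_card' q (h2.trans (relIndex_dvd_card _ _))
  have hy' : orderOf (y : G) = q := by rw [Subgroup.orderOf_coe, hy]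
  have h4 := Transfer.card_modEq_card_inf_centralizer (q := q) (A := zpowers (y : G))
    (IsPGroup.of_card (n := 1) (by rw [Nat.card_zpowers, hy', pow_one])) (zpowers_le.mpr y.2)
  obtain ⟨i, hi⟩ := IsPGroup.iff_card.mp (P.2.map N.subtype)
  have h5 : i ≠ 0 := by
    rintro rfl
    rw [card_map_of_injective N.subtype_injective] at hi
    have := P.dvd_card_of_dvd_card h1
    rw [hi] at this
    exact hp.one_lt.ne' (Nat.dvd_one.mp this)
  obtain ⟨j, hj⟩ := IsPGroup.iff_card.mp ((P.2.map N.subtype).to_inf_left (K := centralizer (zpowers (y : G) : Set G)))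
  have h6 : j ≠ 0 := by
    rintro rfl
    exact h i (Nat.pos_of_ne_zero h5) (hi ▸ card_subgroup_dvd_card _) (by rwa [hi, hj] at h4)
  obtain ⟨x, hx⟩ := exists_prime_orderOf_dvd_card' p (hj ▸ dvd_pow_self p h6)
  have hx' : orderOf (x : G) = p := by rw [Subgroup.orderOf_coe, hx]
  have h7 : Commute (x : G) y := (x.2.2 _ (mem_zpowers _)).symm
  exact ⟨x * y, by rw [h7.orderOf_mul_eq_mul_orderOf_of_coprime (by
    rw [hx', hy']; exact (Nat.coprime_primes hp hq).mpr hpq), hx', hy']⟩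

theorem exists_simple_section (π : ℕ → Prop) (hπ : ∀ p, π p → p.Prime ∧ p ∣ Nat.card G)
    (h : ∀ p q, π p → π q → p ≠ q → (∀ i, 0 < i → p ^ i ∣ Nat.card G → ¬ p ^ i ≡ 1 [MOD q]) ∧ ¬ ∃ g : G, orderOf g = p * q)
    {a b : ℕ} (ha : π a) (hb : π b) (hab : a ≠ b) (h2 : ¬ a ^ 2 ∣ Nat.card G) :
    ∃ (N H : Subgroup G) (_ : N.Normal), H.Normal ∧ N < H ∧ IsSimpleGroup (H ⧸ N.subgroupOf H) ∧
      ¬ IsMulCommutative (H ⧸ N.subgroupOf H) ∧ ∀ p, π p → p ∣ Nat.card (H ⧸ N.subgroupOf H) := by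
  have sep : ∀ (K : Subgroup G) [K.Normal] p q, π p → π q → p ∣ Nat.card K → q ∣ Nat.card K := fun K _ p q hp hq h1 => by
    by_cases e : p = q
    · exact e ▸ h1
    refine (((hπ q hq).1.dvd_mul).mp (K.card_mul_index ▸ (hπ q hq).2)).resolve_right fun h3 => ?_
    exact (h p q hp hq e).2 (exists_orderOf_of_sep K (hπ p hp).1 (hπ q hq).1 e h1 h3 (h p q hp hq e).1)
  have a1 := (hπ a ha).1
  obtain ⟨N, -, hN⟩ := Finite.exists_le_maximal (p := fun N : Subgroup G => N.Normal ∧ ¬ a ∣ Nat.card N)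
    (a := ⊥) ⟨inferInstance, by simpa using a1.one_lt.ne'⟩
  have := hN.1.1
  obtain ⟨M, hM, h0, -, hmin⟩ := Core.exists_minimal_normal_le (⊤ : Subgroup (G ⧸ N)) fun e => hN.1.2 (by
    have : N = ⊤ := by rw [← QuotientGroup.ker_mk' N, eq_top_iff]; exact fun x _ => mem_bot.mp (e ▸ mem_top _)
    rw [this, card_top]; exact (hπ a ha).2)
  have h3 : N < M.comap (QuotientGroup.mk' N) := by
    refine lt_of_le_of_ne (fun x hx => by simp [(QuotientGroup.eq_one_iff x).mpr hx]) fun e => h0 ?_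
    rw [← map_comap_eq_self_of_surjective (QuotientGroup.mk'_surjective N) M, ← e, QuotientGroup.map_mk'_self]
  have h4 : ∀ p, π p → p ∣ Nat.card (M.comap (QuotientGroup.mk' N) ⧸ N.subgroupOf _) := fun p hp => by
    have b1 : p ∣ Nat.card (M.comap (QuotientGroup.mk' N)) := sep _ a p ha hp (by
      by_contra e
      exact h3.not_ge (hN.2 ⟨inferInstance, e⟩ h3.le))
    rw [card_eq_card_quotient_mul_card_subgroup (N.subgroupOf _), Nat.card_congr (subgroupOfEquivOfLe h3.le).toEquiv] at b1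
    exact ((hπ p hp).1.dvd_mul.mp b1).resolve_right fun e => hN.1.2 (sep _ p a hp ha e)
  have e : (M.comap (QuotientGroup.mk' N) ⧸ N.subgroupOf _) ≃* M :=
    (QuotientGroup.quotientMulEquivOfEq (Subgroup.ext fun x => by
      rw [MonoidHom.mem_ker, Subtype.ext_iff, mem_subgroupOf]
      exact (QuotientGroup.eq_one_iff (x : G)).symm)).trans
      (QuotientGroup.quotientKerEquivOfSurjective ((QuotientGroup.mk' N).subgroupComap M)
        (MonoidHom.subgroupComap_surjective_of_surjective _ _ (QuotientGroup.mk'_surjective N)))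
  obtain ⟨T, _, m, hT, hm, ⟨f⟩⟩ := Perm.minimal_normal_equiv_pi M h0 hmin
  have h5 : Nat.card M = Nat.card T ^ m := by rw [Nat.card_congr f.toEquiv, Nat.card_fun, Nat.card_fin]
  have h6 : m = 1 := by
    by_contra h6
    have b1 := a1.dvd_of_dvd_pow (h5 ▸ Nat.card_congr e.toEquiv ▸ h4 a ha)
    exact h2 ((((pow_dvd_pow a (show 2 ≤ m by omega)).trans (pow_dvd_pow_of_dvd b1 m)).trans
      (h5 ▸ card_subgroup_dvd_card M)).trans (card_quotient_dvd_card N))
  subst h6
  have := ((e.trans f).trans (MulEquiv.funUnique (Fin 1) T)).isSimpleGroup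
  refine ⟨N, _, ‹_›, inferInstance, h3, this, fun hc => hab ?_, h4⟩
  have b1 : (Nat.card (M.comap (QuotientGroup.mk' N) ⧸ N.subgroupOf _)).Prime := by
    by_contra e'
    exact Perm.not_comm_of_not_prime e' hc
  exact ((Nat.prime_dvd_prime_iff_eq a1 b1).mp (h4 a ha)).trans
    ((Nat.prime_dvd_prime_iff_eq (hπ b hb).1 b1).mp (h4 b hb)).symm

theorem add_le_of_orderOf {α : Type*} [Fintype α] [DecidableEq α] {σ : Equiv.Perm α} {p q : ℕ} (hp : p.Prime) (hq : q.Prime)
    (hpq : p ≠ q) (h : p * q ∣ orderOf σ) : p + q ≤ Fintype.card α := by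
  have h1 : orderOf σ ∣ σ.cycleType.prod := σ.lcm_cycleType ▸ Multiset.lcm_dvd.mpr fun b hb => Multiset.dvd_prod hb
  obtain ⟨a, ha, h2⟩ := hp.prime.exists_mem_multiset_dvd ((dvd_mul_right p q).trans (h.trans h1))
  obtain ⟨b, hb, h3⟩ := hq.prime.exists_mem_multiset_dvd ((dvd_mul_left q p).trans (h.trans h1))
  have h4 := σ.sum_cycleType_le
  have h5 := Equiv.Perm.two_le_of_mem_cycleType ha
  have h6 := Equiv.Perm.two_le_of_mem_cycleType hb
  obtain ⟨t, ht⟩ := Multiset.exists_cons_of_mem ha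
  rw [ht, Multiset.sum_cons] at h4
  rcases Multiset.mem_cons.mp (ht ▸ hb) with rfl | e
  · have := Nat.le_of_dvd (by omega) (((Nat.coprime_primes hp hq).mpr hpq).mul_dvd_of_dvd_of_dvd h2 h3)
    have := Nat.add_le_mul hp.two_le hq.two_le
    omega
  · have := Multiset.le_sum_of_mem e
    have := Nat.le_of_dvd (by omega) h2
    have := Nat.le_of_dvd (by omega) h3
    omega

theorem card_alt_dvd {n : ℕ} (h : Nat.card G = Nat.card (alternatingGroup (Fin n))) : Nat.card G ∣ n.factorial := by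
  rw [h]
  exact (card_subgroup_dvd_card _).trans (by rw [Nat.card_perm, Nat.card_fin])

theorem dvd_card_alt {n p : ℕ} (hn : 2 ≤ n) (h : Nat.card G = Nat.card (alternatingGroup (Fin n))) (hp : p.Prime) (h2 : p ≠ 2)
    (h3 : p ≤ n) : p ∣ Nat.card G := by
  have : Nontrivial (Fin n) := Fin.nontrivial_iff_two_le.mpr hn
  have h4 : p ∣ 2 * Nat.card (alternatingGroup (Fin n)) := by
    rw [two_mul_nat_card_alternatingGroup, Nat.card_perm, Nat.card_fin]; exact hp.dvd_factorial.mpr h3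
  exact h ▸ (hp.dvd_mul.mp h4).resolve_left fun e => h2 ((Nat.prime_dvd_prime_iff_eq hp Nat.prime_two).mp e)

omit [Finite G] in
theorem not_orderOf_alt {n p q : ℕ} (h : Set.range (orderOf : G → ℕ) = Set.range (orderOf : alternatingGroup (Fin n) → ℕ))
    (hp : p.Prime) (hq : q.Prime) (hpq : p ≠ q) (h1 : n < p + q) : ¬ ∃ g : G, orderOf g = p * q := fun e => by
  obtain ⟨σ, hσ⟩ : p * q ∈ Set.range (orderOf : alternatingGroup (Fin n) → ℕ) := h ▸ e
  have := add_le_of_orderOf (σ := σ.1) hp hq hpq (by rw [Subgroup.orderOf_coe, hσ])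
  rw [Fintype.card_fin] at this
  omega

theorem two_primes_half {n : ℕ} (hn : 11 ≤ n) : ∃ p q : ℕ, p.Prime ∧ q.Prime ∧ n < 2 * p ∧ p < q ∧ q ≤ n := by
  by_cases h3 : n ≤ 13
  · exact ⟨7, 11, by norm_num, by norm_num, by omega, by omega, hn⟩
  by_cases h4 : n ≤ 16
  · exact ⟨11, 13, by norm_num, by norm_num, by omega, by omega, by omega⟩
  obtain ⟨p, q, hp, hq, a1, a2, a3⟩ := exists_two_primes n (by omega)
  exact ⟨p, q, hp, hq, a1, by omega, a3⟩

end Cfsg.Agent.FGS
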