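import Mathlib
import Cfsg.Agent.FGS.Basic2
import Cfsg.Agent.PGrp.Sect2
import Cfsg.Agent.Core.Coprime2
import Cfsg.Agent.Core.PSolvable
import Cfsg.Agent.H2.Subnormal
import Cfsg.Agent.Transfer.Abelian

/-! Two-groups of sectional rank at most four. -/

set_option autoImplicit false

namespace Cfsg.Agent.FGS

open Subgroup Cfsg Cfsg.Agent
open scoped Pointwise commutatorElement

variable {S : Type*} [Group S]

/-- `K / N` is a section of exponent two. -/
def Sq (N K : Subgroup S) : Prop := N ≤ K ∧ K ≤ normalizer (N : Set S) ∧ ∀ x ∈ K, x ^ 2 ∈ N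

theorem Sq.le {k : ℕ} (hr : PGrp.Sect 2 k S) {N K : Subgroup S} (h : Sq N K) : N.relIndex K ≤ 2 ^ k := by
  refine hr N K h.2.1 (commutator_le.mpr fun x hx y hy => ?_) h.2.2
  have : ⁅x, y⁆ = (x * y) ^ 2 * (y⁻¹ * x⁻¹ * y) ^ 2 * y⁻¹ ^ 2 := by
    simp only [commutatorElement_def, sq]; group
  rw [this]
  exact N.mul_mem (N.mul_mem (h.2.2 _ (K.mul_mem hx hy))
    (h.2.2 _ (K.mul_mem (K.mul_mem (K.inv_mem hy) (K.inv_mem hx)) hy))) (h.2.2 _ (K.inv_mem hy))

theorem Sq.sup {N₁ N₂ A B : Subgroup S} (h1 : Sq N₁ A) (h2 : Sq N₂ B) (hc : B ≤ centralizer (A : Set S)) :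
    Sq (N₁ ⊔ N₂) (A ⊔ B) := by
  refine ⟨sup_le_sup h1.1 h2.1, sup_le (Core.le_normalizer_sup h1.2.1 ?_) (Core.le_normalizer_sup ?_ h2.2.1),
    fun x hx => ?_⟩
  · exact ((le_centralizer_iff.mp hc).trans (centralizer_le h2.1)).trans (centralizer_le_normalizer _)
  · exact (hc.trans (centralizer_le h1.1)).trans (centralizer_le_normalizer _)
  obtain ⟨a, ha, b, hb, rfl⟩ := (Core.mem_sup_of_le_normalizer (hc.trans (centralizer_le_normalizer _))).mp hx
  rw [Commute.mul_pow (hc hb a ha)]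
  exact mul_mem_sup (h1.2.2 a ha) (h2.2.2 b hb)

theorem Sq.conj {N K : Subgroup S} (h : Sq N K) (g : S) : Sq (MulAut.conj g • N) (MulAut.conj g • K) := by
  refine ⟨H2.conj_smul_mono g h.1, ?_, fun x hx => ?_⟩
  · rw [H2.normalizer_conj_smul]; exact H2.conj_smul_mono g h.2.1
  · have := h.2.2 _ (mem_conj_iff.mp hx)
    rw [mem_conj_iff]; convert this using 1; simp only [sq]; group

theorem relIndex_sup_of_comm [Finite S] {N₁ N₂ A B : Subgroup S} (h1 : N₁ ≤ A) (h2 : N₂ ≤ B)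
    (hc : B ≤ centralizer (A : Set S)) (hd : Disjoint A B) :
    (N₁ ⊔ N₂).relIndex (A ⊔ B) = N₁.relIndex A * N₂.relIndex B := by
  have e1 := Core.card_mul_relIndex (sup_le_sup h1 h2)
  rw [Core.card_sup_of_disjoint (hc.trans (centralizer_le_normalizer _)) hd,
    Core.card_sup_of_disjoint ((h2.trans (hc.trans (centralizer_le h1))).trans (centralizer_le_normalizer _))
      (hd.mono h1 h2), ← Core.card_mul_relIndex h1, ← Core.card_mul_relIndex h2] at e1
  exact Nat.eq_of_mul_eq_mul_left (Nat.mul_pos Nat.card_pos Nat.card_pos) (e1.trans (by ring))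

theorem eq_of_card_two [Finite S] {A B : Subgroup S} (hA : Nat.card A = 2) (h : B ≤ A) (hB : B ≠ ⊥) :
    B = A :=
  Core.eq_of_le_of_card_le h (hA ▸ (B.one_lt_card_iff_ne_bot.mpr hB))

theorem exists_sq [Finite S] {P : Subgroup S} (hP : IsPGroup 2 P) (hna : ¬ IsMulCommutative P)
    (hz : Nat.card (P ⊓ centralizer (P : Set S) : Subgroup S) = 2) :
    ∃ N, Sq N P ∧ 4 ≤ N.relIndex P ∧ P ⊓ centralizer (P : Set S) ≤ N := by
  haveI := Fact.mk Nat.prime_two
  refine ⟨(frattini P).map P.subtype, ⟨map_subtype_le _, Core.le_normalizer_map_subtype_of_normal P _,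
    fun x hx => PGrp.pow_mem_map_frattini hP hx⟩, ?_, ?_⟩
  · rw [relIndex, subgroupOf, comap_map_eq_self_of_injective P.subtype_injective]
    obtain ⟨k, hk⟩ := hP.index (frattini P)
    by_contra h
    refine hna ?_
    haveI := PGrp.isCyclic_of_index_frattini_le hP (by
      rw [hk] at h ⊢
      rcases k with _ | _ | k
      · norm_num
      · norm_num
      · exact absurd (by rw [pow_succ, pow_succ]; have := Nat.two_pow_pos k; omega) h)
    infer_instance
  · have h1 : ⁅P, P⁆ ≤ P := Core.commutator_le_of_le_normalizer le_normalizer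
    have := Core.inf_centralizer_ne_bot_of_isPGroup (hP.to_le h1) hP
      (Core.le_normalizer_commutator le_normalizer le_normalizer)
      (mt Core.isMulCommutative_iff_commutator_eq_bot.mpr hna)
    rw [← eq_of_card_two hz (inf_le_inf_right _ h1) this]
    exact inf_le_left.trans (PGrp.commutator_le_map_frattini hP)

theorem sect4_two [Finite S] (hS : IsPGroup 2 S) (hr : PGrp.Sect 2 4 S) {T P Q : Subgroup S}
    (hPT : P ≤ T) (hQT : Q ≤ T) (hTP : T ≤ normalizer (P : Set S)) (hTQ : T ≤ normalizer (Q : Set S))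
    (hP : ¬ IsMulCommutative P) (hQ : ¬ IsMulCommutative Q)
    (zP : Nat.card (P ⊓ centralizer (P : Set S) : Subgroup S) = 2)
    (zQ : Nat.card (Q ⊓ centralizer (Q : Set S) : Subgroup S) = 2)
    (hne : P ⊓ centralizer (P : Set S) ≠ Q ⊓ centralizer (Q : Set S)) :
    P ⊓ Q = ⊥ ∧ Q ≤ centralizer (P : Set S) ∧ ∀ c ∈ T, c ∈ centralizer (P : Set S) →
      c ∈ centralizer (Q : Set S) → c ∈ (P ⊓ centralizer (P : Set S)) ⊔ (Q ⊓ centralizer (Q : Set S)) := by
  haveI := Fact.mk Nat.prime_two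
  have h1 : P ⊓ Q = ⊥ := by
    by_contra h
    have := Core.inf_centralizer_ne_bot_of_isPGroup (hS.to_subgroup _) (hS.to_subgroup T)
      (Core.le_normalizer_inf hTP hTQ) h
    exact hne ((eq_of_card_two zP (inf_le_inf inf_le_left (centralizer_le hPT)) this).symm.trans
      (eq_of_card_two zQ (inf_le_inf inf_le_right (centralizer_le hQT)) this))
  have h2 : Q ≤ centralizer (P : Set S) := Core.le_centralizer_iff_commutator_eq_bot.mpr (eq_bot_iff.mpr (by
    rw [← h1]
    refine le_inf (Core.commutator_le_of_le_normalizer (hQT.trans hTP)) ?_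
    rw [Subgroup.commutator_comm]
    exact Core.commutator_le_of_le_normalizer (hPT.trans hTQ)))
  have h3 : ∀ c ∈ P ⊔ Q, c ∈ centralizer (P : Set S) → c ∈ centralizer (Q : Set S) →
      c ∈ (P ⊓ centralizer (P : Set S)) ⊔ (Q ⊓ centralizer (Q : Set S)) := fun c hc k1 k2 => by
    obtain ⟨a, ha, b, hb, rfl⟩ := (Core.mem_sup_of_le_normalizer (hQT.trans hTP)).mp hc
    exact mul_mem_sup (mem_inf.mpr ⟨ha, (mul_mem_cancel_right (h2 hb)).mp k1⟩)
      (mem_inf.mpr ⟨hb, (mul_mem_cancel_left (le_centralizer_iff.mp h2 ha)).mp k2⟩)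
  refine ⟨h1, h2, fun c hc k1 k2 => h3 c (by_contra fun hn => ?_) k1 k2⟩
  obtain ⟨j, j1, j2⟩ := PGrp.exists_pow_notMem_pow_mem hn (hS c)
  have k3 := pow_mem k1 (2 ^ j)
  have k4 := pow_mem k2 (2 ^ j)
  generalize c ^ 2 ^ j = d at j1 j2 k3 k4
  obtain ⟨N₁, a1, a2, a3⟩ := exists_sq (hS.to_subgroup P) hP zP
  obtain ⟨N₂, b1, b2, b3⟩ := exists_sq (hS.to_subgroup Q) hQ zQ
  have k5 : d ∈ centralizer ((P ⊔ Q : Subgroup S) : Set S) :=
    le_centralizer_iff.mp (sup_le (le_centralizer_iff.mp (zpowers_le.mpr k3))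
      (le_centralizer_iff.mp (zpowers_le.mpr k4))) (mem_zpowers d)
  have e1 : Sq (zpowers (d ^ 2)) (zpowers d) := ⟨zpowers_le.mpr (pow_mem (mem_zpowers d) 2),
    fun x hx => centralizer_le_normalizer _ (by
      obtain ⟨i, rfl⟩ := hx
      rintro _ ⟨l, rfl⟩
      exact ((Commute.refl d).pow_left 2).zpow_zpow l i), by
      rintro _ ⟨i, rfl⟩
      exact ⟨i, by simp only; rw [← zpow_natCast, ← zpow_natCast, ← zpow_mul, ← zpow_mul, mul_comm]⟩⟩
  have e2 := ((a1.sup b1 h2).sup e1 (zpowers_le.mpr k5)).le hr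
  rw [sup_eq_left.mpr (zpowers_le.mpr (sup_le_sup a3 b3 (h3 _ j2 (pow_mem k3 2) (pow_mem k4 2)))),
    ← relIndex_mul_relIndex _ _ _ (sup_le_sup a1.1 b1.1) le_sup_left,
    relIndex_sup_of_comm a1.1 b1.1 h2 (disjoint_iff.mpr h1),
    PGrp.relIndex_sup_zpowers Nat.prime_two (centralizer_le_normalizer _ k5) j2 j1] at e2
  nlinarith

theorem sectional_of_sq {k : ℕ} {P : Subgroup S}
    (h : ∀ N K : Subgroup S, K ≤ P → Sq N K → N.relIndex K ≤ 2 ^ k) : SectionalPRankLE 2 k P := by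
  intro H N _ A _ h2
  let f := P.subtype.comp H.subtype
  have hf : Function.Injective f := P.subtype_injective.comp H.subtype_injective
  have := h (N.map f) ((A.comap (QuotientGroup.mk' N)).map f) (by rintro _ ⟨x, -, rfl⟩; exact x.1.2)
    ⟨map_mono (QuotientGroup.le_comap_mk' N A),
      Core.map_le_normalizer_map (le_top.trans (normalizer_eq_top N).ge) f, by
      rintro _ ⟨x, hx, rfl⟩
      rw [← map_pow]
      exact mem_map_of_mem f ((QuotientGroup.eq_one_iff _).mp (h2 _ hx))⟩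
  rwa [relIndex_map_map_of_injective _ _ hf, Core.relIndex_eq_card_map_mk',
    map_comap_eq_self_of_surjective (QuotientGroup.mk'_surjective N)] at this

end Cfsg.Agent.FGS
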