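import Mathlib
import Cfsg.Agent.FGS.SylowNum
import Cfsg.Agent.S4341

/-!
# FGS/SylowNum2: M. Hall's factorisation of Sylow numbers
-/

set_option autoImplicit false

open Subgroup

namespace Cfsg.Agent.FGS

universe u

/-- For a `p`-group `P` normalising a `p'`-group `K` each prime-power part of `[K : C_K(P)]` is
congruent to one modulo `p`. -/
theorem pow_factorization_relIndex_centralizer {G : Type*} [Group G] [Finite G] {p : ℕ}
    [hp : Fact p.Prime] {P K : Subgroup G} (hP : IsPGroup p P) (hn : P ≤ normalizer (K : Set G))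
    (hK : ¬ p ∣ Nat.card K) {l : ℕ} (hl : l.Prime) :
    l ^ ((centralizer (P : Set G)).relIndex K).factorization l ≡ 1 [MOD p] := by
  have := Fact.mk hl
  have hcop : (Nat.card P).Coprime (Nat.card K) := by
    obtain ⟨k, hk⟩ := IsPGroup.iff_card.mp hP
    rw [hk]; exact ((Nat.Prime.coprime_iff_not_dvd hp.out).mpr hK).pow_left k
  have hs : Group.IsSolvable P := Core.solvable_of_isPGroup hP
  obtain ⟨L, hL, hPL⟩ := Core.exists_invariant_isSylowOf P K hn hcop (Or.inl hs) l
  have h1 := Core.IsSylowOf.inf_centralizer P K hn hcop (Or.inl hs) hL hPL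
  have h2 := Transfer.card_modEq_card_inf_centralizer hP hPL
  rw [hL.card_eq_pow, h1.card_eq_pow, ← Core.card_inf_mul_relIndex (centralizer (P : Set G)) K,
    Nat.factorization_mul Nat.card_pos.ne' (b := relIndex _ _) index_ne_zero_of_finite,
    Finsupp.add_apply, pow_add,
    inf_comm] at h2
  refine Nat.ModEq.cancel_left_of_coprime (c := l ^ (Nat.card (K ⊓ centralizer (P : Set G) :
    Subgroup G)).factorization l) ?_ (by rwa [mul_one])
  rw [← h1.card_eq_pow]
  exact (Nat.Prime.coprime_iff_not_dvd hp.out).mpr fun h =>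
    hK (h.trans (card_dvd_of_le (h1.le.trans inf_le_left)))

theorem normalizer_inf_eq_of_disjoint {G : Type*} [Group G] {P K : Subgroup G} [K.Normal]
    (h : P ⊓ K = ⊥) : normalizer (P : Set G) ⊓ K = centralizer (P : Set G) ⊓ K := by
  refine le_antisymm (fun k hk => ⟨mem_centralizer_iff.mpr fun x hx => ?_, hk.2⟩)
    (inf_le_inf_right K (centralizer_le_normalizer _))
  have h1 : x⁻¹ * (k * x * k⁻¹) ∈ P ⊓ K := by
    refine ⟨P.mul_mem (P.inv_mem hx) (Core.conj_mem_of_le_normalizer le_rfl hk.1 hx), ?_⟩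
    have := K.mul_mem (Normal.conj_mem inferInstance k hk.2 x⁻¹) (K.inv_mem hk.2)
    simpa [mul_assoc] using this
  rw [h, mem_bot] at h1
  calc x * k = x * (x⁻¹ * (k * x * k⁻¹)) * k := by rw [h1, mul_one]
    _ = k * x := by group

/-- Induction principle for properties of Sylow numbers closed under products. -/
theorem sylow_number_induction {p : ℕ} [hp : Fact p.Prime] {C : ∀ (G : Type u) [Group G], Prop}
    (hsub : ∀ (G : Type u) [Group G] (H : Subgroup G), C G → C H)
    (hquo : ∀ (G : Type u) [Group G] (N : Subgroup G) [N.Normal], C G → C (G ⧸ N))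
    {Q : ℕ → Prop} (hmul : ∀ a b, Q a → Q b → Q (a * b))
    (hpow : ∀ n : ℕ, n ≠ 0 → (∀ l : ℕ, l.Prime → l ^ n.factorization l ≡ 1 [MOD p]) → Q n)
    (hsimple : ∀ (G : Type u) [Group G] [Finite G] [IsSimpleGroup G], C G →
      Q (Nat.card (Sylow p G)))
    (G : Type u) [Group G] [Finite G] : C G → Q (Nat.card (Sylow p G)) := by
  refine Core.induction_on_card (P := fun G _ _ => C G → Q (Nat.card (Sylow p G))) ?_ G
  intro G _ _ ih h
  obtain ⟨P⟩ : Nonempty (Sylow p G) := inferInstance
  rcases subsingleton_or_nontrivial G with hs | hs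
  · have : Nat.card (Sylow p G) = 1 := by
      rw [card_sylow_eq P, index_eq_one]; exact Subsingleton.elim _ _
    rw [this]
    exact hpow 1 one_ne_zero fun l _ => by simp [Nat.ModEq]
  by_cases hsimp : IsSimpleGroup G
  · exact hsimple G h
  have : ∃ N : Subgroup G, N.Normal ∧ N ≠ ⊥ ∧ N ≠ ⊤ := by
    by_contra hn
    push Not at hn
    exact hsimp ⟨fun N hN => or_iff_not_imp_left.mpr (hn N hN)⟩
  obtain ⟨K, hK, h1, h2⟩ := this
  have hq := ih _ (Core.card_quotient_lt K h1) (hquo G K h)
  by_cases hPK : (P : Subgroup G) ⊓ K = ⊥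
  · rw [card_sylow_eq_quotient_mul P K, ← inf_relIndex_right, normalizer_inf_eq_of_disjoint hPK,
      inf_relIndex_right]
    refine hmul _ _ hq (hpow _ index_ne_zero_of_finite fun l hl =>
      pow_factorization_relIndex_centralizer P.isPGroup' le_normalizer_of_normal
        (fun hd => (Core.isSylowOf_sylow_inf_normal P K).ne_bot hd hPK) hl)
  · set N := ((P : Subgroup G) ⊔ K) ⊓ normalizer (((P : Subgroup G) ⊓ K : Subgroup G) : Set G)
      with hN
    have hn : (((P : Subgroup G) ⊓ K).subgroupOf N).Normal :=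
      normal_subgroupOf_of_le_normalizer inf_le_right
    rw [S4341.result p K P N hN]
    refine hmul _ _ (hmul _ _ hq (ih _ (Core.card_lt_of_ne_top K h2) (hsub G K h)))
      (ih _ ((Core.card_quotient_lt _ fun h0 => hPK ?_).trans_le (card_le_card_group N))
        (hquo _ _ (hsub G N h)))
    rwa [subgroupOf_eq_bot, disjoint_iff, inf_eq_left.mpr] at h0
    exact le_inf (inf_le_left.trans le_sup_left) le_normalizer

end Cfsg.Agent.FGS
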