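import Mathlib
import Cfsg.Agent.FGS.SymSyl
import Cfsg.Agent.Core.MinNormal

set_option autoImplicit false

namespace Cfsg.Agent.FGS

open Subgroup Equiv MulAction

variable {α : Type*} [Fintype α] [DecidableEq α]

/-- the orbit of a point under a permutation group, as a finset -/
noncomputable def orbF (A : Subgroup (Perm α)) (x : α) : Finset α := (orbit A x).toFinite.toFinset

theorem mem_orbF {A : Subgroup (Perm α)} {x y : α} : y ∈ orbF A x ↔ ∃ a ∈ A, a x = y := by
  rw [orbF, Set.Finite.mem_toFinset, mem_orbit_iff]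
  exact ⟨fun ⟨a, h⟩ => ⟨a, a.2, h⟩, fun ⟨a, h, h'⟩ => ⟨⟨a, h⟩, h'⟩⟩

theorem card_orbF_mul (A : Subgroup (Perm α)) (x : α) :
    (orbF A x).card * Nat.card (A ⊓ stabilizer (Perm α) x : Subgroup _) = Nat.card A := by
  rw [← Core.card_mul_relIndex (inf_le_right : stabilizer (Perm α) x ⊓ A ≤ A), inf_relIndex_right, mul_comm, inf_comm,
    orbF, ← Set.ncard_eq_toFinset_card, ← index_stabilizer]
  rfl

theorem orbF_subset {A : Subgroup (Perm α)} {S : Finset α} (hS : ∀ a ∈ A, a.support ⊆ S) {x : α} (hx : x ∈ S) :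
    orbF A x ⊆ S := fun y hy => by
  obtain ⟨a, ha, rfl⟩ := mem_orbF.mp hy
  by_cases h : a x = x
  · rwa [h]
  · exact hS a ha (Perm.apply_mem_support.mpr (Perm.mem_support.mpr h))

theorem support_stab {A : Subgroup (Perm α)} (hA : IsMulCommutative A) {S : Finset α} (hS : ∀ a ∈ A, a.support ⊆ S)
    (x : α) : ∀ a ∈ A ⊓ stabilizer (Perm α) x, a.support ⊆ S \ orbF A x := fun a ha y hy =>
  Finset.mem_sdiff.mpr ⟨hS a ha.1 hy, fun h => by
    obtain ⟨b, hb, rfl⟩ := mem_orbF.mp h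
    refine Perm.mem_support.mp hy ?_
    rw [← Perm.mul_apply, isMulCommutative_iff_forall.mp hA a ha.1 b hb, Perm.mul_apply, show a x = x from ha.2]⟩

theorem two_le_card_orbF {A : Subgroup (Perm α)} {a : Perm α} (ha : a ∈ A) {x : α} (hx : a x ≠ x) :
    2 ≤ (orbF A x).card :=
  Finset.one_lt_card.mpr ⟨_, mem_orbF.mpr ⟨a, ha, rfl⟩, x, mem_orbF.mpr ⟨1, one_mem _, rfl⟩, hx⟩

/-- induction principle for bounding abelian permutation groups -/
theorem abelian_bound (Q : Subgroup (Perm α) → Prop) (hQ : ∀ A B, Q A → B ≤ A → Q B) (f : ℕ → ℕ)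
    (h : ∀ A S, Q A → IsMulCommutative A → (∀ a ∈ A, a.support ⊆ S) → Nat.card A ≤ f S.card ∨
      ∃ x ∈ S, (orbF A x).card * f (S.card - (orbF A x).card) ≤ f S.card) (S : Finset α) :
    ∀ A, Q A → IsMulCommutative A → (∀ a ∈ A, a.support ⊆ S) → Nat.card A ≤ f S.card := by
  induction S using Finset.strongInduction with
  | _ S ih =>
  intro A h1 h2 h3
  refine (h A S h1 h2 h3).elim id fun ⟨x, hx, h4⟩ => ?_
  have h5 := ih (S \ orbF A x) (Finset.sdiff_ssubset (orbF_subset h3 hx) ⟨x, mem_orbF.mpr ⟨1, one_mem _, rfl⟩⟩)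
    _ (hQ _ _ h1 inf_le_left) (Core.isMulCommutative_of_le h2 inf_le_left) (support_stab h2 h3 x)
  rw [Finset.card_sdiff_of_subset (orbF_subset h3 hx)] at h5
  exact (card_orbF_mul A x).ge.trans ((Nat.mul_le_mul_left _ h5).trans h4)

/-- bound for the symmetric group -/
def abS : ℕ → ℕ
  | 0 => 1 | 1 => 1 | 2 => 2 | 3 => 3 | 4 => 4
  | n + 5 => 3 * abS (n + 2)

/-- bound for the alternating group -/
def abA : ℕ → ℕ
  | 0 => 1 | 1 => 1 | 2 => 1 | 3 => 3 | 4 => 4 | 5 => 5 | 6 => 9 | 7 => 12 | 8 => 16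
  | n + 9 => 3 * abA (n + 6)

theorem abS_pos (n : ℕ) : 0 < abS n := by fun_induction abS n <;> omega

theorem abA_pos (n : ℕ) : 0 < abA n := by fun_induction abA n <;> omega

theorem mul_abS_le (k m : ℕ) : m * abS k ≤ abS (m + k) := by
  induction k using Nat.strong_induction_on with
  | _ k ih =>
  by_cases hk : 5 ≤ k
  · obtain ⟨k, rfl⟩ := Nat.exists_eq_add_of_le' hk
    have := ih (k + 2) (by omega)
    rw [abS, ← add_assoc, abS, add_assoc]
    nlinarith
  clear ih
  induction m using Nat.strong_induction_on with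
  | _ m ih =>
  by_cases hm : 5 ≤ m
  · obtain ⟨m, rfl⟩ := Nat.exists_eq_add_of_le' hm
    have := ih (m + 2) (by omega)
    rw [add_right_comm, abS, add_right_comm m k]
    nlinarith [abS_pos k]
  · clear ih
    interval_cases k <;> interval_cases m <;> simp [abS]

theorem mul_abA_le (k m : ℕ) (h : 3 ≤ m) : m * abA k ≤ abA (m + k) := by
  induction k using Nat.strong_induction_on with
  | _ k ih =>
  by_cases hk : 9 ≤ k
  · obtain ⟨k, rfl⟩ := Nat.exists_eq_add_of_le' hk
    have := ih (k + 6) (by omega)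
    rw [abA, ← add_assoc, abA, add_assoc]
    nlinarith
  clear ih
  induction m using Nat.strong_induction_on with
  | _ m ih =>
  by_cases hm : 9 ≤ m
  · obtain ⟨m, rfl⟩ := Nat.exists_eq_add_of_le' hm
    have := ih (m + 6) (by omega) (by omega)
    rw [add_right_comm, abA, add_right_comm m k]
    nlinarith [abA_pos k]
  · clear ih
    interval_cases k <;> interval_cases m <;> simp [abA]

theorem two_pow_le_abA (n : ℕ) (h : n ≠ 2) : 2 ^ (n / 2) ≤ abA n := by
  induction n using Nat.strong_induction_on with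
  | _ n ih =>
  by_cases hn : 12 ≤ n
  · obtain ⟨n, rfl⟩ := Nat.exists_eq_add_of_le' hn
    have := ih (n + 6) (by omega) (by omega)
    rw [show n + 12 = n + 3 + 9 from rfl, abA, show n + 3 + 6 = n + 9 from rfl, abA,
      show (n + 3 + 9) / 2 = (n + 6) / 2 + 3 by omega, pow_add]
    omega
  · clear ih
    interval_cases n <;> simp_all [abA]

theorem exists_moved {A : Subgroup (Perm α)} (h : A ≠ ⊥) : ∃ a ∈ A, ∃ x, a x ≠ x := by
  by_contra! h1
  exact h (eq_bot_iff.mpr fun a ha => Equiv.ext (h1 a ha))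

theorem card_le_abS {A : Subgroup (Perm α)} (hA : IsMulCommutative A) {S : Finset α} (hS : ∀ a ∈ A, a.support ⊆ S) :
    Nat.card A ≤ abS S.card := by
  refine abelian_bound (fun _ => True) (fun _ _ _ _ => trivial) abS (fun A S _ h2 h3 => ?_) S A trivial hA hS
  rcases eq_or_ne A ⊥ with rfl | h
  · exact .inl (card_bot.le.trans (abS_pos _))
  obtain ⟨a, ha, x, hx⟩ := exists_moved h
  have h4 := h3 a ha (Perm.mem_support.mpr hx)
  exact .inr ⟨x, h4, (mul_abS_le _ _).trans_eq (by rw [Nat.add_sub_cancel' (Finset.card_le_card (orbF_subset h3 h4))])⟩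

theorem card_le_two_pow {A : Subgroup (Perm α)} (hA : IsMulCommutative A) {S : Finset α} (hS : ∀ a ∈ A, a.support ⊆ S)
    (h2 : ∀ x, (orbF A x).card ≤ 2) : Nat.card A ≤ 2 ^ (S.card / 2) := by
  refine abelian_bound (fun A => ∀ x, (orbF A x).card ≤ 2) (fun A B h hle x => (Finset.card_le_card fun y hy => ?_).trans
    (h x)) (fun n => 2 ^ (n / 2)) (fun A S h1 h2 h3 => ?_) S A h2 hA hS
  · obtain ⟨b, hb, rfl⟩ := mem_orbF.mp hy
    exact mem_orbF.mpr ⟨b, hle hb, rfl⟩
  rcases eq_or_ne A ⊥ with rfl | h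
  · exact .inl (card_bot.le.trans Nat.one_le_two_pow)
  obtain ⟨a, ha, x, hx⟩ := exists_moved h
  have h4 := h3 a ha (Perm.mem_support.mpr hx)
  have h5 := Finset.card_le_card (orbF_subset h3 h4)
  refine .inr ⟨x, h4, ?_⟩
  rw [le_antisymm (h1 x) (two_le_card_orbF ha hx)] at h5 ⊢
  rw [← pow_succ', show (S.card - 2) / 2 + 1 = S.card / 2 by omega]

theorem card_le_abA {A : Subgroup (Perm α)} (hA : IsMulCommutative A) {S : Finset α} (hS : ∀ a ∈ A, a.support ⊆ S)
    (he : A ≤ alternatingGroup α) : Nat.card A ≤ abA S.card := by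
  refine abelian_bound (· ≤ alternatingGroup α) (fun _ _ h h' => h'.trans h) abA (fun A S h1 h2 h3 => ?_) S A he hA hS
  rcases eq_or_ne A ⊥ with rfl | h
  · exact .inl (card_bot.le.trans (abA_pos _))
  by_cases h4 : ∃ x ∈ S, 3 ≤ (orbF A x).card
  · obtain ⟨x, h4, h5⟩ := h4
    exact .inr ⟨x, h4, (mul_abA_le _ _ h5).trans_eq (by
      rw [Nat.add_sub_cancel' (Finset.card_le_card (orbF_subset h3 h4))])⟩
  refine .inl ((card_le_two_pow h2 h3 fun x => ?_).trans (two_pow_le_abA _ fun e => ?_))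
  · by_cases hx : x ∈ S
    · exact Nat.le_of_lt_succ (not_le.mp fun h => h4 ⟨x, hx, h⟩)
    · refine (Finset.card_le_one.mpr fun y hy z hz => ?_).trans one_le_two
      obtain ⟨a, ha, rfl⟩ := mem_orbF.mp hy
      obtain ⟨b, hb, rfl⟩ := mem_orbF.mp hz
      rw [Perm.notMem_support.mp fun h => hx (h3 a ha h), Perm.notMem_support.mp fun h => hx (h3 b hb h)]
  · obtain ⟨a, ha, x, hx⟩ := exists_moved h
    have h5 := Perm.card_support_eq_two.mp (le_antisymm ((Finset.card_le_card (h3 a ha)).trans e.le)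
      (Perm.two_le_card_support_of_ne_one fun e => hx (by rw [e]; rfl)))
    exact absurd (h5.sign_eq.symm.trans (h1 ha)) (by decide)

/-- there is an abelian subgroup of order `c` (in the alternating group if `b`) -/
def ExAb (b : Prop) (n c : ℕ) : Prop :=
  ∃ A : Subgroup (Perm (Fin n)), IsMulCommutative A ∧ Nat.card A = c ∧ (b → A ≤ alternatingGroup (Fin n))

theorem ExAb.add {b : Prop} {n c m d : ℕ} (h : ExAb b n c) (h' : ExAb b m d) : ExAb b (n + m) (c * d) := by
  obtain ⟨A, hA, rfl, h1⟩ := h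
  obtain ⟨B, hB, rfl, h2⟩ := h'
  let f := (finSumFinEquiv (m := n) (n := m)).permCongrHom.toMonoidHom.comp (Perm.sumCongrHom (Fin n) (Fin m))
  have hf : Function.Injective f := finSumFinEquiv.permCongrHom.injective.comp Perm.sumCongrHom_injective
  refine ⟨(A.prod B).map f, isMulCommutative_iff_forall.mpr ?_, ?_, fun hb => ?_⟩
  · rintro _ ⟨x, hx, rfl⟩ _ ⟨y, hy, rfl⟩
    rw [← map_mul, ← map_mul, show x * y = y * x from Prod.ext (isMulCommutative_iff_forall.mp hA _ hx.1 _ hy.1)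
      (isMulCommutative_iff_forall.mp hB _ hx.2 _ hy.2)]
  · rw [card_map_of_injective hf, Nat.card_congr (A.prodEquiv B).toEquiv, Nat.card_prod]
  · rintro _ ⟨x, hx, rfl⟩
    refine (Perm.sign_permCongr _ _).trans ((Perm.sign_sumCongr _ _).trans ?_)
    rw [show Perm.sign x.1 = 1 from h1 hb hx.1, show Perm.sign x.2 = 1 from h2 hb hx.2, one_mul]

theorem ExAb.three (b : Prop) (k : ℕ) : ExAb b (3 * k) (3 ^ k) := by
  induction k with
  | zero => exact ⟨⊥, inferInstance, card_bot, fun _ => bot_le⟩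
  | succ k ih =>
    have h : Nat.card (alternatingGroup (Fin 3)) = 3 := by rw [nat_card_alternatingGroup]; simp; rfl
    haveI := isCyclic_of_prime_card h
    exact ih.add ⟨alternatingGroup (Fin 3), inferInstance, h, fun _ => le_rfl⟩

theorem ExAb.four (b : Prop) : ExAb b 4 4 := by
  haveI := alternatingGroup.kleinFour_isKleinFour (α := Fin 4) (by simp)
  haveI : IsMulCommutative (alternatingGroup.kleinFour (Fin 4)) := IsKleinFour.isMulCommutative
  exact ⟨(alternatingGroup.kleinFour (Fin 4)).map (Subgroup.subtype _), inferInstance,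
    (Core.card_map_subtype _).trans IsKleinFour.card_four, fun _ => map_subtype_le _⟩

theorem abS_eq (k : ℕ) : abS (3 * (k + 1)) = 3 ^ (k + 1) ∧ abS (3 * (k + 1) + 1) = 4 * 3 ^ k ∧
    abS (3 * (k + 1) + 2) = 2 * 3 ^ (k + 1) := by
  induction k with
  | zero => simp [abS]
  | succ k ih =>
    refine ⟨(show abS (3 * k + 1 + 5) = _ from ?_), (show abS (3 * k + 2 + 5) = _ from ?_),
      (show abS (3 * k + 3 + 5) = _ from ?_)⟩ <;> rw [abS]
    · rw [show 3 * k + 1 + 2 = 3 * (k + 1) by ring, ih.1]; ring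
    · rw [show 3 * k + 2 + 2 = 3 * (k + 1) + 1 by ring, ih.2.1]; ring
    · rw [show 3 * k + 3 + 2 = 3 * (k + 1) + 2 by ring, ih.2.2]; ring

theorem abA_eq (k : ℕ) : abA (3 * (k + 2)) = 3 ^ (k + 2) ∧ abA (3 * (k + 2) + 1) = 4 * 3 ^ (k + 1) ∧
    abA (3 * (k + 2) + 2) = 16 * 3 ^ k := by
  induction k with
  | zero => simp [abA]
  | succ k ih =>
    refine ⟨(show abA (3 * k + 9) = _ from ?_), (show abA (3 * k + 1 + 9) = _ from ?_),
      (show abA (3 * k + 2 + 9) = _ from ?_)⟩ <;> rw [abA]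
    · rw [show 3 * k + 6 = 3 * (k + 2) by ring, ih.1]; ring
    · rw [show 3 * k + 1 + 6 = 3 * (k + 2) + 1 by ring, ih.2.1]; ring
    · rw [show 3 * k + 2 + 6 = 3 * (k + 2) + 2 by ring, ih.2.2]; ring

end Cfsg.Agent.FGS
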