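import Mathlib
import Cfsg.Agent.Glaub.Qd3
import Cfsg.Agent.Herm.SU3

/-! Groups with TI Sylow `p`-subgroups do not involve `Qd(p)`; Sylow subgroups of `SU₃(q)` are TI. -/

set_option autoImplicit false

namespace Cfsg.Agent.FGS

open Subgroup Module
open scoped Pointwise

theorem not_qd_of_ti {G : Type*} [Group G] [Finite G] {p : ℕ} [hp : Fact p.Prime]
    (h : ∀ P Q : Sylow p G, P ≠ Q → (P : Subgroup G) ⊓ Q = ⊥) : ¬ Transfer.IsSectionOf G (Glaub.qdC (ZMod p)) := by
  rintro ⟨K, f, hf⟩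
  have := Glaub.finite_qdC (R := ZMod p)
  have hV : (Glaub.qV (ZMod p)).Normal := Glaub.pCore_qdC (p := p) (F := ZMod p) ▸ inferInstance
  have hc : Nat.card (Glaub.qV (ZMod p)) = p ^ 2 := by rw [Glaub.card_qV, Nat.card_zmod]
  obtain ⟨R⟩ : Nonempty (Sylow p ((Glaub.qV (ZMod p)).comap f)) := inferInstance
  have h1 := R.normalizer_sup_eq_top
  set M := normalizer (((R : Subgroup _).map ((Glaub.qV (ZMod p)).comap f).subtype : Subgroup K) : Set K)
  have h2 : (R : Subgroup _).map (f.subgroupComap (Glaub.qV (ZMod p))) = ⊤ := by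
    have a1 := f.subgroupComap_surjective_of_surjective (Glaub.qV (ZMod p)) hf
    exact ((R.mapSurjective a1).is_maximal' ((IsPGroup.of_card hc).to_subgroup ⊤) le_top).symm
  have h3 : Glaub.qV (ZMod p) ≤ ((R : Subgroup _).map ((Glaub.qV (ZMod p)).comap f).subtype).map f := fun v hv => by
    obtain ⟨r, hr, e⟩ := h2.ge (mem_top ⟨v, hv⟩)
    exact ⟨r, ⟨r, hr, rfl⟩, congrArg Subtype.val e⟩
  have h4 : M.map f = ⊤ := by
    rw [eq_top_iff, ← map_top_of_surjective f hf, ← h1, Subgroup.map_sup]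
    exact sup_le le_rfl ((map_comap_le _ _).trans (h3.trans (map_mono le_normalizer)))
  obtain ⟨P, hP⟩ := ((R.2.map ((Glaub.qV (ZMod p)).comap f).subtype).map K.subtype).exists_le_sylow
  have h5 : ∀ g ∈ M, (g : G) ∈ normalizer ((P : Subgroup G) : Set G) := fun g hg => by
    refine Sylow.smul_eq_iff_mem_normalizer.mp ?_
    by_contra e
    have a1 : ((R : Subgroup _).map ((Glaub.qV (ZMod p)).comap f).subtype).map K.subtype ≤ ⊥ := by
      rw [← h _ _ e]
      refine le_inf ?_ hP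
      rintro _ ⟨r, hr, rfl⟩
      refine ⟨_, hP ⟨_, (inv_mem hg r).mp hr, rfl⟩, ?_⟩
      simp [mul_assoc]
    rw [le_bot_iff, map_eq_bot_iff_of_injective _ K.subtype_injective] at a1
    rw [a1, Subgroup.map_bot, le_bot_iff, ← card_eq_one, hc] at h3
    exact (Nat.one_lt_pow two_ne_zero hp.out.one_lt).ne' h3
  have h6 : Function.Surjective (f.comp M.subtype) := fun y => by
    obtain ⟨x, hx, e⟩ := h4.ge (mem_top y)
    exact ⟨⟨x, hx⟩, e⟩
  obtain ⟨T⟩ : Nonempty (Sylow p M) := inferInstance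
  have h7 : ∀ T : Sylow p M, (T : Subgroup M) = (P : Subgroup G).comap (K.subtype.comp M.subtype) := fun T =>
    (T.is_maximal' (P.2.comap_of_injective _ (K.subtype_injective.comp M.subtype_injective)) (map_le_iff_le_comap.mp
      (le_sup_right.trans (P.is_maximal' (P.2.to_sup_of_normal_left' (T.2.map _) (by
        rintro _ ⟨x, -, rfl⟩; exact h5 _ x.2)) le_sup_left).le))).symm
  have : Subsingleton (Sylow p M) := ⟨fun a b => Sylow.ext ((h7 a).trans (h7 b).symm)⟩
  exact Glaub.norm_sylow_ne_top (LocalEven.isSylowIn_top (T.mapSurjective h6))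
    (normalizer_eq_top_iff.mpr ((Sylow.normal_of_subsingleton T).map _ h6))

theorem ti_of_one {G : Type*} [Group G] [Finite G] {p : ℕ} [Fact p.Prime] (U : Sylow p G)
    (h : ∀ g : G, ∀ x ∈ (U : Subgroup G), x ≠ 1 → g⁻¹ * x * g ∈ (U : Subgroup G) → ∀ y ∈ (U : Subgroup G), g * y * g⁻¹ ∈ (U : Subgroup G))
    (P Q : Sylow p G) (hPQ : P ≠ Q) : (P : Subgroup G) ⊓ Q = ⊥ := by
  obtain ⟨a, rfl⟩ := MulAction.exists_smul_eq G U P
  obtain ⟨b, rfl⟩ := MulAction.exists_smul_eq G U Q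
  refine eq_bot_iff.mpr ?_
  rintro _ ⟨⟨x, hx, rfl⟩, y, hy, e⟩
  by_contra h1
  have e' : b * y * b⁻¹ = a * x * a⁻¹ := e
  have := Sylow.smul_eq_iff_mem_normalizer.mpr (mem_normalizer_fintype (h (a⁻¹ * b) x hx (by rintro rfl; simp at h1)
    (by rw [show (a⁻¹ * b)⁻¹ * x * (a⁻¹ * b) = b⁻¹ * (a * x * a⁻¹) * b by group, ← e', show b⁻¹ * (b * y * b⁻¹) * b = y by group]; exact hy)))
  exact hPQ (by rw [mul_smul, inv_smul_eq_iff] at this; exact this.symm)

open Herm in
theorem su3_ti {F V : Type*} [Field F] [Finite F] [AddCommGroup V] [Module F V] [FiniteDimensional F V] {σ : F →+* F}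
    {B : V →ₛₗ[σ] V →ₗ[F] F} {q : ℕ} (hB : HF B) (hF : Nat.card F = q ^ 2) (hn : finrank F V = 3) {p k : ℕ}
    [hp : Fact p.Prime] (hq : q = p ^ k) (P Q : Sylow p (SUG B)) (hPQ : P ≠ Q) : (P : Subgroup (SUG B)) ⊓ Q = ⊥ := by
  have : Finite V := Module.finite_of_finite F
  have := finite_UG (B := B)
  obtain ⟨u, w, f, hu, huw, hw, huf, hf, hfw⟩ := hB.exists_frame_three hn.ge
  obtain ⟨m, h1, h2⟩ := hB.sylow_three_aux hF hn hq
  have hi : Function.Injective (hB.heisHom hu huw hw) := (injective_iff_map_eq_one _).mpr fun x hx =>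
    hB.heisHom_eq_one hu huw hw huf hf hfw x ⟨1, by rw [hx]; simp⟩
  have hc : Nat.card (hB.heisHom hu huw hw).range = p ^ (3 * k) := by
    rw [← Nat.card_congr (MonoidHom.ofInjective hi).toEquiv, Heis.card hF, hq, ← pow_mul, mul_comm]
  have hwu := hB.zero_symm huw
  have hfu := hB.one_symm huf
  have hwf := hB.zero_symm hfw
  have h3 : ∀ x, B u x = 0 → x = B w x • w + B f x • u := fun x hx => by
    have a1 : LinearIndependent F ![u, w, f] := Fintype.linearIndependent_iff.mpr fun c hc => by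
      simp only [Fin.sum_univ_three, Matrix.cons_val] at hc
      have b1 := congrArg (B u) hc
      have b2 := congrArg (B w) hc
      have b3 := congrArg (B f) hc
      simp [hu, huw, huf, hwu, hw, hwf, hfu, hfw, hf] at b1 b2 b3
      intro i; fin_cases i <;> assumption
    obtain ⟨c, rfl⟩ := (Submodule.mem_span_range_iff_exists_fun F).mp
      ((a1.span_eq_top_of_card_eq_finrank (by simp [hn])).ge (Submodule.mem_top (x := x)))
    simp only [Fin.sum_univ_three, Matrix.cons_val] at hx ⊢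
    simp [hu, huw, huf] at hx
    simp [hx, hwu, hw, hfu, hfw, add_comm]
  refine ti_of_one ((IsPGroup.of_card hc).toSylow fun e => h2 (e.trans (Nat.dvd_of_mul_dvd_mul_left (pow_pos hp.out.pos _)
    (by rwa [← card_mul_index (hB.heisHom hu huw hw).range, hc] at h1)))) ?_ P Q hPQ
  rintro g _ ⟨x, rfl⟩ hx ⟨z, hz⟩ _ ⟨y, rfl⟩
  have a1 : (hB.heisHom hu huw hw x).1.1 (g.1.1 u) = g.1.1 u := by
    have b1 := hB.heisHom_apply hu huw hw z u
    rw [hz] at b1
    simpa [hu, hwu] using congrArg g.1.1 b1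
  have a2 : B u (g.1.1 u) = 0 := by
    by_contra e
    rw [hB.heisHom_apply, add_sub_assoc, add_eq_left] at a1
    have b1 := congrArg (B w) a1
    have b2 := congrArg (B f) a1
    simp [hwu, hw, hfu, hfw, e] at b1 b2
    simp [b1, e] at b2
    exact hx (by rw [show x = 1 from Heis.ext b1 b2, map_one])
  have a3 : B w (g.1.1 u) = 0 := by
    have b1 := UG.map_b g.1 u u
    rw [h3 _ a2] at b1
    simp [hu, huw, hwu, hw] at b1
    tauto
  have a4 := h3 _ a2
  rw [a3, zero_smul, zero_add] at a4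
  have a5 : B u (g.1.1 w) = 0 := by
    have b1 := UG.map_b g.1 u w
    rw [a4, b_smul_left, huw, mul_eq_zero, map_eq_zero] at b1
    exact b1.resolve_left fun e => ne_zero_of_b (huf ▸ one_ne_zero) ((UG.apply_eq_zero g.1).mp (by rw [a4, e, zero_smul]))
  have key : ∀ v l, B u v = 0 → l + σ l = B v v → ∃ t, (hB.heisHom hu huw hw t : UG B) = hB.eich u v l := fun v l b1 b2 => by
    have b3 : l + σ l = B (B w v • w) (B w v • w) := by
      rw [b2]; conv_lhs => rw [h3 v b1]
      simp [hu, huw, hwu, mul_left_comm]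
    refine ⟨⟨B w v, l + B f v - σ (B f v), ?_⟩, ?_⟩
    · simp only [map_add, map_sub, hB.invol]
      simp only [b_smul_left, map_smul, hw, smul_eq_mul] at b3
      linear_combination b3
    · rw [hB.heisHom_coe, ← hB.eich_add_smul hu (by simp [huw]) b3, ← h3 v b1]
  have a6 : y.l + σ y.l = B (g.1.1 (y.a • w)) (g.1.1 (y.a • w)) := by simp [hw, y.prop, mul_comm]
  obtain ⟨t, ht⟩ := key (σ (B f (g.1.1 u)) • g.1.1 (y.a • w)) (B f (g.1.1 u) * σ (B f (g.1.1 u)) * y.l) (by simp [a5]) (by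
    rw [b_smul_left, map_smul (B _), ← a6]
    simp only [map_mul, hB.invol, smul_eq_mul]; ring)
  refine ⟨t, Subtype.ext ?_⟩
  rw [ht, ← hB.eich_smul_left hu (by simp [a5]) a6, ← a4, ← hB.eich_conj, ← hB.heisHom_coe hu huw hw]
  rfl

end Cfsg.Agent.FGS
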